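import Mathlib
import Cfsg.Agent.Lib.A6C.Defs

/-! Standard subgroups with dihedral Sylow 2-subgroups of order 8: the frames. -/

set_option autoImplicit false

namespace H16D

open Subgroup H69 H36.SW H80.A6C

variable {X : Type} [Group X] {G : Type*} [Group G]

/-- `⟨a, b⟩` is dihedral of order 8 with centre `⟨z⟩` -/
structure Dh (z a b : G) : Prop where
  aa : a * a = 1
  bb : b * b = 1
  zz : z * z = 1
  z1 : z ≠ 1
  hz : a * b * a * b = z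

/-- the dihedral group -/
abbrev DG (a b : G) : Subgroup G := closure ({a, b} : Set G)

/-- `x` swaps the two four-groups -/
def Sp (z a b x : G) : Prop :=
  (x * a * x⁻¹ = b ∨ x * a * x⁻¹ = z * b) ∧ (x * b * x⁻¹ = a ∨ x * b * x⁻¹ = z * a)

/-- `A` has Sylow 2-subgroup `⟨a, b⟩`, two subgroups `S₄` over it, and two facts on `N(A)` -/
structure Gq (A : Subgroup G) (z a b y w : G) : Prop extends Dh z a b where
  aA : a ∈ A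
  bA : b ∈ A
  yA : y ∈ A
  wA : w ∈ A
  syl : IsSylowIn 2 (DG a b) A
  odd : ∀ x ∈ A, x ∈ 𝐂(A) → Odd (orderOf x)
  nrm : ∀ M ≤ A, A ≤ 𝐍(M) → z ∈ M → A ≤ M
  y3 : y ^ 3 = 1
  w3 : w ^ 3 = 1
  yz : y * z * y⁻¹ = a
  wz : w * z * w⁻¹ = b
  ya : y * a * y⁻¹ = z * a
  wb : w * b * w⁻¹ = z * b
  byb : b * y * b = y⁻¹
  awa : a * w * a = w⁻¹
  m1 : ∀ x ∈ 𝐍(A), x * a = a * x → x * b = b * x →
    (x * y = y * x ∨ z * x * y = y * (z * x)) ∧ (x * w = w * x ∨ z * x * w = w * (z * x))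
  m2 : ∀ x ∈ 𝐍(A), x * x ∈ 𝐂(A) → x * a = a * x → x * b = b * x → ∀ p ∈ A, ∀ q ∈ A, x * p = p * x →
    x * q = q * x → p * z * p⁻¹ = a → q * z * q⁻¹ = b → x ∈ 𝐂(A)

/-- the centraliser of `A` is tightly embedded -/
def Ti (A : Subgroup G) : Prop := ∀ g k, k * k = 1 → k ≠ 1 → k ∈ 𝐂(A) → g * k * g⁻¹ ∈ 𝐂(A) → g ∈ 𝐍(A)

/-- `s` is inner on `A` -/
def In (A : Subgroup G) (s : G) : Prop := ∃ x ∈ A, ∃ k ∈ 𝐂(A), x * x = 1 ∧ k * k = 1 ∧ s = k * x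

/-- `K` contains a four-group -/
def Four (K : Subgroup G) : Prop :=
  ∃ p ∈ K, ∃ q ∈ K, p * p = 1 ∧ q * q = 1 ∧ p * q = q * p ∧ p ≠ 1 ∧ q ≠ 1 ∧ p ≠ q

/-- the centraliser of `A` has 2-rank one, `G = E⟨t⟩` -/
structure K0 (J : Subgroup X) (E A : Subgroup G) (α : G → X) (t : G) : Prop extends St J A α where
  En : E.Normal
  Es : IsSimpleGroup E
  AE : A ≤ E
  top : ∀ g, g ∈ E ∨ g * t ∈ E
  cE : ∀ g ∈ 𝐂(E), g = 1
  tt : t * t = 1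
  t1 : t ≠ 1
  tA : t ∈ 𝐂(A)
  rk : ∀ a ∈ 𝐂(A), ∀ b ∈ 𝐂(A), a * a = 1 → b * b = 1 → a * b = b * a → a = 1 ∨ b = 1 ∨ a = b
  zs : ∃ g, g * t * g⁻¹ ≠ t ∧ g * t * g⁻¹ * t = t * (g * t * g⁻¹)

/-- `⟨t⟩` is a Sylow 2-subgroup of `C(A)` -/
structure K1 (J : Subgroup X) (E A : Subgroup G) (α : G → X) (t : G) : Prop extends K0 J E A α t where
  k2 : ∀ k ∈ 𝐂(A), k * t = t * k → P2 k → k = 1 ∨ k = t

/-- rank one: a Sylow 2-subgroup `T` of `C(t)` over `⟨a, b⟩` -/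
structure Tf (A T : Subgroup G) (t z a b y w : G) : Prop extends Gq A z a b y w where
  sT : IsSylowIn 2 T (centralizer {t})
  TN : T ≤ 𝐍(A)
  DT : DG a b ≤ T
  tt : t * t = 1
  t1 : t ≠ 1
  tT : t ∈ T
  tA : t ∈ 𝐂(A)
  rk : ∀ r ∈ T, r ∈ 𝐂(A) → r * r = 1 → r = 1 ∨ r = t

/-- rank two: two subgroups `A`, `B` and a common Sylow 2-subgroup of their normalisers -/
structure Pq (A B S : Subgroup G) (z a b y w t a' b' y' w' : G) : Prop where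
  qA : Gq A z a b y w
  qB : Gq B t a' b' y' w'
  tiA : Ti A
  tiB : Ti B
  dis : ∀ k ∈ 𝐂(A), k ∈ 𝐂(B) → k * k = 1 → k = 1
  zB : z ∈ 𝐂(B)
  tA : t ∈ 𝐂(A)
  sA : IsSylowIn 2 S 𝐍(A)
  sB : IsSylowIn 2 S 𝐍(B)
  dA : DG a b ≤ S
  dB : DG a' b' ≤ S
  fA : Four 𝐂(A)
  fB : Four 𝐂(B)
  nc : ¬ A ≤ 𝐂(B)

/-- the model -/
structure Mo (J : Subgroup X) : Prop where
  nJ : J.Normal
  sJ : IsSimpleGroup J
  cJ : ∀ g : X, (∀ j ∈ J, g * j = j * g) → g = 1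
  aut : ∀ φ : J ≃* J, ∃ x : X, ∀ j : J, (φ j : X) = x * j * x⁻¹
  fr : ∃ z a b y w, Gq J z a b y w

theorem eqns_Defs : True := by
  have := @Sp.eq_1.{0}
  have := @Ti.eq_1.{0}
  have := @In.eq_1.{0}
  have := @Four.eq_1.{0}
  trivial

end H16D
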