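import Mathlib
import Cfsg.Agent.Lib.HD8.Defs
import Cfsg.Agent.Lib.A7S.Gen

/-! The dihedral group of order 8. -/

set_option autoImplicit false
set_option linter.unusedSectionVars false
set_option linter.unusedSimpArgs false

namespace H16D

open Subgroup H69 H36.SW H80.A6C

variable {G : Type*} [Group G] {z a b : G}

theorem aD : a ∈ DG a b := subset_closure (Or.inl rfl)
theorem bD : b ∈ DG a b := subset_closure (Or.inr rfl)
theorem DG_comm : DG a b = DG b a := by rw [DG, DG, Set.pair_comm]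
theorem DG_le {H : Subgroup G} (ha : a ∈ H) (hb : b ∈ H) : DG a b ≤ H :=
  (closure_le _).2 (by rintro _ (rfl | rfl); exacts [ha, hb])
theorem cD {c d : G} (h1 : c * a = a * c) (h2 : c * b = b * c) (hd : d ∈ DG a b) : c * d = d * c :=
  (mem_centralizer_singleton_iff.1 ((DG_le (H := centralizer {c}) (mem_centralizer_singleton_iff.2 h1.symm)
    (mem_centralizer_singleton_iff.2 h2.symm)) hd)).symm
theorem DG_cj (g : G) : DG a b ^ᶜ g = DG (g * a * g⁻¹) (g * b * g⁻¹) := by
  rw [DG, DG, MonoidHom.map_closure, Set.image_pair]; rfl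
theorem Sp.symm {x : G} (h : Sp z a b x) : Sp z b a x := ⟨h.2, h.1⟩

namespace Dh
variable (h : Dh z a b)
include h

theorem l_aa (x : G) : a * (a * x) = x := by rw [← mul_assoc, h.aa, one_mul]
theorem l_bb (x : G) : b * (b * x) = x := by rw [← mul_assoc, h.bb, one_mul]
theorem l_zz (x : G) : z * (z * x) = x := by rw [← mul_assoc, h.zz, one_mul]
theorem ai : a⁻¹ = a := inv_eq_of_mul_eq_one_left h.aa
theorem bi : b⁻¹ = b := inv_eq_of_mul_eq_one_left h.bb
theorem zi : z⁻¹ = z := inv_eq_of_mul_eq_one_left h.zz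

theorem hz' : b * a * b * a = z := by
  rw [← h.zi, ← h.hz]
  simp only [mul_inv_rev, h.ai, h.bi, mul_assoc]
theorem symm : Dh z b a := ⟨h.bb, h.aa, h.zz, h.z1, h.hz'⟩
theorem za : z * a = a * z := by
  conv_lhs => rw [← h.hz]
  conv_rhs => rw [← h.hz']
  simp only [mul_assoc]
theorem zb : z * b = b * z := h.symm.za
theorem ba : b * a = z * (a * b) := by
  rw [← h.hz']
  simp only [mul_assoc, h.l_aa, h.bb, mul_one]
theorem l_az (x : G) : a * (z * x) = z * (a * x) := by rw [← mul_assoc, ← h.za, mul_assoc]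
theorem l_bz (x : G) : b * (z * x) = z * (b * x) := by rw [← mul_assoc, ← h.zb, mul_assoc]
theorem l_ba (x : G) : b * (a * x) = z * (a * (b * x)) := by
  rw [← mul_assoc, h.ba]; simp only [mul_assoc]
theorem cc : a * b * (a * b) = z := by rw [← h.hz]; simp only [mul_assoc]
theorem cc' : b * a * (b * a) = z := h.symm.cc
theorem nab : a * b ≠ b * a := fun e => h.z1 (by
  have := h.ba
  rw [← e] at this
  exact mul_eq_right.1 this.symm)
theorem a1 : a ≠ 1 := fun e => h.nab (by rw [e, one_mul, mul_one])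
theorem b1 : b ≠ 1 := h.symm.a1
theorem az : a ≠ z := fun e => h.nab (by rw [e, h.zb])
theorem bz : b ≠ z := h.symm.az
theorem za1 : z * a ≠ 1 := fun e => h.az (by rw [← h.l_zz a, e, mul_one])
theorem zb1 : z * b ≠ 1 := h.symm.za1
theorem zD : z ∈ DG a b := h.hz ▸ mul_mem (mul_mem (mul_mem aD bD) aD) bD
theorem cj (g : G) : Dh (g * z * g⁻¹) (g * a * g⁻¹) (g * b * g⁻¹) :=
  ⟨cjsq h.aa g, cjsq h.bb g, cjsq h.zz g, cjne h.z1 g, by rw [← h.hz]; group⟩

theorem memD {d : G} : d ∈ DG a b ↔ d = 1 ∨ d = z ∨ d = a ∨ d = z * a ∨ d = b ∨ d = z * b ∨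
    d = a * b ∨ d = b * a := by
  constructor
  · intro hd
    induction hd using closure_induction with
    | mem x hx => rcases hx with rfl | rfl <;> simp only [true_or, or_true]
    | one => exact Or.inl rfl
    | mul x y _ _ hx hy =>
      rcases hx with e | e | e | e | e | e | e | e <;>
        rcases hy with f | f | f | f | f | f | f | f <;>
        simp only [e, f, mul_assoc, one_mul, mul_one, h.l_aa, h.l_bb, h.l_zz, h.l_az, h.l_bz, h.l_ba, h.aa, h.bb,
          h.zz, ← h.za, ← h.zb, h.ba, true_or, or_true]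
    | inv x _ hx =>
      rcases hx with e | e | e | e | e | e | e | e <;>
        simp only [e, mul_inv_rev, inv_one, h.ai, h.bi, h.zi, ← h.za, ← h.zb, true_or, or_true]
  · rintro (e | e | e | e | e | e | e | e) <;> rw [e]
    exacts [one_mem _, h.zD, aD, mul_mem h.zD aD, bD, mul_mem h.zD bD, mul_mem aD bD, mul_mem bD aD]
theorem sqD {d : G} (hd : d ∈ DG a b) : d * d = 1 ∨ d * d = z := by
  rcases h.memD.1 hd with e | e | e | e | e | e | e | e <;>
    simp only [e, mul_assoc, one_mul, mul_one, h.l_aa, h.l_bb, h.l_zz, h.l_az, h.l_bz, h.l_ba, h.aa, h.bb, h.zz,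
      h.ba, true_or, or_true]
/-- the involutions -/
theorem invD {d : G} (hd : d ∈ DG a b) (d2 : d * d = 1) :
    d = 1 ∨ d = z ∨ d = a ∨ d = z * a ∨ d = b ∨ d = z * b := by
  rcases h.memD.1 hd with e | e | e | e | e | e | e | e
  iterate 6 simp only [e, true_or, or_true]
  · exact absurd (h.cc.symm.trans (e ▸ d2)) h.z1
  · exact absurd (h.cc'.symm.trans (e ▸ d2)) h.z1
theorem zc {d : G} (hd : d ∈ DG a b) : z * d = d * z := cD h.za h.zb hd
theorem Nz {x : G} (hx : x ∈ 𝐍(DG a b)) : x * z = z * x := by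
  rcases h.sqD (conj_mem_of_mem_normalizer hx (mul_mem aD bD)) with e | e <;> rw [conj_mul, h.cc] at e
  · exact absurd e (cjne h.z1 x)
  · exact mul_inv_eq_iff_eq_mul.1 e
theorem act1 {d : G} (hd : d ∈ DG a b) : d * a = a * d ∨ d * a = z * (a * d) := by
  rcases h.memD.1 hd with e | e | e | e | e | e | e | e <;>
    simp only [e, mul_assoc, one_mul, mul_one, h.l_aa, h.l_bb, h.l_zz, h.l_az, h.l_bz, h.l_ba, h.aa, h.bb, h.zz,
      ← h.za, ← h.zb, h.ba, true_or, or_true]
theorem act2 {d : G} (hd : d ∈ DG a b) : d * b = b * d ∨ d * b = z * (b * d) := h.symm.act1 (DG_comm.le hd)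
theorem cen1 {d : G} (hd : d ∈ DG a b) (c : d * a = a * d) : d = 1 ∨ d = z ∨ d = a ∨ d = z * a := by
  have z1 := h.z1
  rcases h.memD.1 hd with e | e | e | e | e | e | e | e
  iterate 4 simp only [e, true_or, or_true]
  all_goals
    simp only [e, mul_assoc, mul_one, h.l_aa, h.l_zz, h.l_az, h.l_bz, h.l_ba, h.aa, h.ba] at c
    simp [z1] at c
theorem cen2 {d : G} (hd : d ∈ DG a b) (c : d * b = b * d) : d = 1 ∨ d = z ∨ d = b ∨ d = z * b :=
  h.symm.cen1 (DG_comm.le hd) c
theorem cenD {d : G} (hd : d ∈ DG a b) (h1 : d * a = a * d) (h2 : d * b = b * d) : d = 1 ∨ d = z := by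
  have z1 := h.z1
  rcases h.cen1 hd h1 with e | e | e | e
  iterate 2 simp only [e, true_or, or_true]
  all_goals
    simp only [e, mul_assoc, h.l_zz, h.l_bz, h.ba] at h2
    simp [z1] at h2
theorem p2 {d : G} (hd : d ∈ DG a b) : P2 d :=
  P2.of_mul_self ((h.sqD hd).elim (fun e => e ▸ .of_sq (one_mul 1)) fun e => e ▸ .of_sq h.zz)
theorem isP : IsPGroup 2 (DG a b) := isP_of_P2 fun _ => h.p2

/-- a subgroup normalised by `D` that meets `D` contains `z` -/
theorem norm_z {N : Subgroup G} (hN : DG a b ≤ 𝐍(N)) {d : G} (hd : d ∈ DG a b) (dN : d ∈ N) (d1 : d ≠ 1) :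
    z ∈ N := by
  have k : ∀ v ∈ DG a b, d * v = z * (v * d) → z ∈ N := fun v hv e => by
    have := mul_mem dN (inv_mem (conj_mem_of_mem_normalizer (hN hv) dN))
    rwa [show d * (v * d * v⁻¹)⁻¹ = d * v * (v * d)⁻¹ by group, e, mul_inv_cancel_right] at this
  rcases h.act1 hd with e1 | e1
  swap
  · exact k _ aD e1
  rcases h.act2 hd with e2 | e2
  swap
  · exact k _ bD e2
  exact (h.cenD hd e1 e2).resolve_left d1 ▸ dN

theorem nonc {x d : G} (hx : x ∈ 𝐍(DG a b)) (hd : d ∈ DG a b) (d2 : d * d = 1) (d1 : d ≠ 1) (dz : d ≠ z) :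
    x * d * x⁻¹ = a ∨ x * d * x⁻¹ = z * a ∨ x * d * x⁻¹ = b ∨ x * d * x⁻¹ = z * b := by
  rcases h.invD (conj_mem_of_mem_normalizer hx hd) (cjsq d2 x) with e | e | e
  · exact absurd e (cjne d1 x)
  · refine absurd ?_ dz
    rw [mul_inv_eq_iff_eq_mul, ← h.Nz hx] at e
    exact mul_left_cancel e
  · exact e

/-- automorphisms: inner or swapping -/
theorem aut {x : G} (hx : x ∈ 𝐍(DG a b)) :
    (∃ d ∈ DG a b, ∃ c, c * a = a * c ∧ c * b = b * c ∧ x = d * c) ∨ Sp z a b x := by
  have nc : x * a * x⁻¹ * (x * b * x⁻¹) ≠ x * b * x⁻¹ * (x * a * x⁻¹) := fun e => h.nab (by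
    rw [conj_mul, conj_mul] at e
    simpa using e)
  have fin : ∀ d ∈ DG a b, x * a * x⁻¹ = d * a * d⁻¹ → x * b * x⁻¹ = d * b * d⁻¹ →
      ∃ d ∈ DG a b, ∃ c, c * a = a * c ∧ c * b = b * c ∧ x = d * c := fun d hd e1 e2 => by
    refine ⟨d, hd, d⁻¹ * x, ?_, ?_, by group⟩
    · calc _ = d⁻¹ * (x * a * x⁻¹) * x := by group
        _ = _ := by rw [e1]; group
    · calc _ = d⁻¹ * (x * b * x⁻¹) * x := by group
        _ = _ := by rw [e2]; group
  have s := h.nonc hx aD h.aa h.a1 h.az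
  have t := h.nonc hx bD h.bb h.b1 h.bz
  have n1 : ∀ {p q : G}, p = a ∨ p = z * a → q = a ∨ q = z * a → p * q = q * p := by
    rintro _ _ (e | e) (f | f) <;> simp only [e, f, mul_assoc, h.l_az]
  have n2 : ∀ {p q : G}, p = b ∨ p = z * b → q = b ∨ q = z * b → p * q = q * p := by
    rintro _ _ (e | e) (f | f) <;> simp only [e, f, mul_assoc, h.l_bz]
  rw [← or_assoc] at s t
  rcases s with s | s <;> rcases t with t | t
  · exact absurd (n1 s t) nc
  rotate_left
  · exact Or.inr ⟨s, t⟩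
  · exact absurd (n2 s t) nc
  rcases s with e | e <;> rcases t with f | f
  · exact Or.inl (fin 1 (one_mem _) (by simp [e]) (by simp [f]))
  · exact Or.inl (fin a aD (by simp [e]) (by
      simp only [f, h.ai, mul_assoc, h.ba, h.l_az, h.l_aa]))
  · exact Or.inl (fin b bD (by
      simp only [e, h.bi, mul_assoc, h.l_ba, h.bb, mul_one]) (by simp [f]))
  · exact Or.inl (fin (a * b) (mul_mem aD bD) (by
      simp only [e, mul_inv_rev, h.ai, h.bi, mul_assoc, h.l_ba, h.l_bb, h.l_aa, h.l_az, h.aa, mul_one, h.za]) (by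
      simp only [f, mul_inv_rev, h.ai, h.bi, mul_assoc, h.l_bb, h.ba, h.l_az, h.l_aa]))

/-- a swapping element is not inner -/
theorem not_sp {d c : G} (hd : d ∈ DG a b) (c1 : c * a = a * c) (s : Sp z a b (d * c)) : False := by
  have e : d * c * a * (d * c)⁻¹ = d * a * d⁻¹ := by rw [mul_assoc d, c1]; group
  have k : d * a * d⁻¹ * a = a * (d * a * d⁻¹) := by
    rcases h.act1 hd with f | f <;> rw [f]
    · group
    · simp only [mul_assoc, mul_inv_cancel, mul_one, h.l_az]
  rw [← e] at k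
  rcases s.1 with f | f <;> rw [f] at k
  · exact h.nab k.symm
  · rw [mul_assoc, h.l_az] at k
    exact h.nab (mul_left_cancel k).symm

/-- a swapping element that is seen on `a` -/
theorem sp_of {x : G} (hx : x ∈ 𝐍(DG a b)) (e : x * a * x⁻¹ = b ∨ x * a * x⁻¹ = z * b) : Sp z a b x := by
  refine (h.aut hx).resolve_left ?_
  rintro ⟨d, hd, c, c1, -, rfl⟩
  have e' : d * c * a * (d * c)⁻¹ = d * a * d⁻¹ := by rw [mul_assoc d, c1]; group
  have k : d * a * d⁻¹ * a = a * (d * a * d⁻¹) := by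
    rcases h.act1 hd with f | f <;> rw [f]
    · group
    · simp only [mul_assoc, mul_inv_cancel, mul_one, h.l_az]
  rw [← e'] at k
  rcases e with f | f <;> rw [f] at k
  · exact h.nab k.symm
  · rw [mul_assoc, h.l_az] at k
    exact h.nab (mul_left_cancel k).symm

/-- the product of two swapping elements does not swap -/
theorem sp_mul {x u : G} (hx : x ∈ 𝐍(DG a b)) (s : Sp z a b x) (t : Sp z a b u) : ¬ Sp z a b (x * u) := by
  intro k
  have xz : x * z * x⁻¹ = z := mul_inv_eq_iff_eq_mul.2 (h.Nz hx)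
  have e : x * u * a * (x * u)⁻¹ = a ∨ x * u * a * (x * u)⁻¹ = z * a := by
    rw [show x * u * a * (x * u)⁻¹ = x * (u * a * u⁻¹) * x⁻¹ by group]
    rcases t.1 with f | f <;> rw [f]
    · exact s.2
    · rw [← conj_mul, xz]
      exact s.2.symm.imp (fun g => by rw [g, h.l_zz]) fun g => by rw [g]
  have n : x * u * a * (x * u)⁻¹ * a = a * (x * u * a * (x * u)⁻¹) := by
    rcases e with f | f <;> rw [f]
    rw [mul_assoc, h.l_az]
  rcases k.1 with f | f <;> rw [f] at n
  · exact h.nab n.symm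
  · rw [mul_assoc, h.l_az] at n
    exact h.nab (mul_left_cancel n).symm

/-- elements of order 4 -/
theorem four {d : G} (hd : d ∈ DG a b) (d2 : d * d ≠ 1) : d = a * b ∨ d = b * a := by
  rcases h.memD.1 hd with e | e | e | e | e | e | e
  any_goals (refine absurd ?_ d2
             simp only [e, mul_assoc, one_mul, h.l_zz, h.l_az, h.l_bz, h.aa, h.bb, h.zz]; done)
  exact e

end Dh

end H16D
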