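import Mathlib
import Cfsg.Agent.Lib.HD8.D8

/-! Frames: transport. -/

set_option autoImplicit false
set_option linter.unusedSectionVars false

namespace H16D

open Subgroup H69 H36.SW H80.A6C

variable {G : Type*} [Group G] [Finite G] {A B S T E : Subgroup G} {z a b y w t a' b' y' w' : G}

theorem Gq.symm (q : Gq A z a b y w) : Gq A z b a w y := by
  exact { q.toDh.symm with
    aA := q.bA, bA := q.aA, yA := q.wA, wA := q.yA, syl := (DG_comm (a := a) (b := b)) ▸ q.syl, odd := q.odd, nrm := q.nrm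
    y3 := q.w3, w3 := q.y3, yz := q.wz, wz := q.yz, ya := q.wb, wb := q.ya, byb := q.awa, awa := q.byb
    m1 := fun x hx h1 h2 => (q.m1 x hx h2 h1).symm
    m2 := fun x hx k h1 h2 p hp r hr c1 c2 e1 e2 => q.m2 x hx k h2 h1 r hr p hp c2 c1 e2 e1 }

theorem Gq.zA (q : Gq A z a b y w) : z ∈ A := by
  exact q.syl.le q.toDh.zD

theorem Gq.DA (q : Gq A z a b y w) : DG a b ≤ A := by
  exact q.syl.le

theorem Gq.one (q : Gq A z a b y w) {x : G} (hx : x ∈ A) (hk : x ∈ 𝐂(A)) (x2 : P2 x) : x = 1 := by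
  exact x2.eq_one (q.odd x hx hk)

theorem Gq.zK (q : Gq A z a b y w) : z ∉ 𝐂(A) := by
  exact fun k => q.z1 (q.one q.zA k (.of_sq q.zz))

namespace MBH

omit [Finite G] in
theorem ex (g x : G) : ∃ x', x = g * x' * g⁻¹ := ⟨g⁻¹ * x * g, by group⟩

omit [Finite G] in
theorem eq_iff {g x y : G} : g * x * g⁻¹ = g * y * g⁻¹ ↔ x = y := by simp

omit [Finite G] in
theorem memC {g x : G} : g * x * g⁻¹ ∈ 𝐂(A ^ᶜ g) ↔ x ∈ 𝐂(A) := by rw [← cj_centralizer, cj_mem_iff]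

omit [Finite G] in
theorem memN {g x : G} : g * x * g⁻¹ ∈ 𝐍(A ^ᶜ g) ↔ x ∈ 𝐍(A) := by rw [← cj_normalizer, cj_mem_iff]

omit [Finite G] in
theorem cj3 (g p x : G) : g * p * g⁻¹ * (g * x * g⁻¹) * (g * p * g⁻¹)⁻¹ = g * (p * x * p⁻¹) * g⁻¹ := by group

omit [Finite G] in
theorem ord (g x : G) : orderOf (g * x * g⁻¹) = orderOf x := (MulAut.conj g).orderOf_eq x

end MBH

open MBH

theorem Gq.cjg (q : Gq A z a b y w) (g : G) :
    Gq (A ^ᶜ g) (g * z * g⁻¹) (g * a * g⁻¹) (g * b * g⁻¹) (g * y * g⁻¹) (g * w * g⁻¹) := by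
  refine { q.toDh.cj g with
    aA := cj_mem g q.aA, bA := cj_mem g q.bA, yA := cj_mem g q.yA, wA := cj_mem g q.wA
    syl := DG_cj g ▸ q.syl.cj g, odd := fun x hx hk => ?_, nrm := fun M hM hN hz => ?_
    y3 := by rw [conj_pow, q.y3]; group
    w3 := by rw [conj_pow, q.w3]; group
    yz := by rw [cj3, q.yz]
    wz := by rw [cj3, q.wz]
    ya := by rw [cj3, q.ya, conj_mul]
    wb := by rw [cj3, q.wb, conj_mul]
    byb := by rw [conj_mul, conj_mul, q.byb]; group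
    awa := by rw [conj_mul, conj_mul, q.awa]; group
    m1 := fun x hx h1 h2 => ?_, m2 := fun x hx k h1 h2 p hp r hr c1 c2 e1 e2 => ?_ }
  · obtain ⟨x, rfl⟩ := ex g x
    rw [ord]
    exact q.odd x (cj_mem_iff.1 hx) (memC.1 hk)
  · refine cj_le_iff.2 (q.nrm _ (le_cj_iff.1 hM) ?_ (mem_cj.2 (by rwa [inv_inv])))
    rw [← cj_normalizer]
    exact cj_le_iff.1 hN
  · obtain ⟨x, rfl⟩ := ex g x
    simp only [conj_mul, eq_iff] at h1 h2 ⊢
    exact q.m1 x (memN.1 hx) h1 h2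
  · obtain ⟨x, rfl⟩ := ex g x
    obtain ⟨p, rfl⟩ := ex g p
    obtain ⟨r, rfl⟩ := ex g r
    rw [cj3, eq_iff] at e1 e2
    rw [conj_mul, conj_mul, eq_iff] at h1 h2 c1 c2
    rw [conj_mul] at k
    exact memC.2 (q.m2 x (memN.1 hx) (memC.1 k) h1 h2 p (cj_mem_iff.1 hp) r (cj_mem_iff.1 hr) c1 c2 e1 e2)

theorem Gq.cjN (q : Gq A z a b y w) {g : G} (hg : g ∈ 𝐍(A)) :
    Gq A (g * z * g⁻¹) (g * a * g⁻¹) (g * b * g⁻¹) (g * y * g⁻¹) (g * w * g⁻¹) := by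
  have := q.cjg g
  rwa [cj_eq_of_mem_normalizer hg] at this

theorem Gq.cls1 (q : Gq A z a b y w) {x : G} (hx : x ∈ A) (x2 : x * x = 1) (x1 : x ≠ 1) : ∃ p ∈ A, p * z * p⁻¹ = x := by
  obtain ⟨g, hg, e⟩ := q.syl.exists_cj_le (P2.of_sq x2).zpowers (zpowers_le.2 hx)
  have k : ∀ p ∈ A, p * z * p⁻¹ = g * x * g⁻¹ → ∃ p ∈ A, p * z * p⁻¹ = x := fun p hp e =>
    ⟨g⁻¹ * p, mul_mem (inv_mem hg) hp, by
      calc _ = g⁻¹ * (p * z * p⁻¹) * g := by group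
        _ = x := by rw [e]; group⟩
  have k2 : ∀ p : G, p * p * z * (p * p)⁻¹ = p * (p * z * p⁻¹) * p⁻¹ := fun p => by group
  rcases q.toDh.invD (e (cj_mem g (mem_zpowers x))) (cjsq x2 g) with h | h | h | h | h | h
  · exact absurd h (cjne x1 g)
  · exact k 1 (one_mem _) (by rw [h]; group)
  · exact k y q.yA (by rw [h, q.yz])
  · exact k (y * y) (mul_mem q.yA q.yA) (by rw [h, k2, q.yz, q.ya])
  · exact k w q.wA (by rw [h, q.wz])
  · exact k (w * w) (mul_mem q.wA q.wA) (by rw [h, k2, q.wz, q.wb])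

theorem Gq.inf (q : Gq A z a b y w) (hS : IsPGroup 2 S) (hD : DG a b ≤ S) : S ⊓ A = DG a b := by
  exact q.syl.max _ (le_inf hD q.DA) inf_le_right hS.to_inf_left

theorem Gq.nD (q : Gq A z a b y w) (hS : IsPGroup 2 S) (hD : DG a b ≤ S) (hN : S ≤ 𝐍(A)) : S ≤ 𝐍(DG a b) := by
  rw [← q.inf hS hD]
  exact le_normalizer_inf le_normalizer hN

theorem MBH.ad (q : Gq A z a b y w) (hS : IsPGroup 2 S) {L : Subgroup G} (hL : L ≤ 𝐍(A)) (hSL : S ≤ L)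
    (hD : DG a b ≤ L) : ∃ p ∈ A ⊓ L, S ≤ 𝐍(DG (p * a * p⁻¹) (p * b * p⁻¹)) := by
  obtain ⟨P, hP, hSP⟩ := exists_isSylowIn_le hS hSL
  have n : L ≤ 𝐍(A ⊓ L) := le_normalizer_inf hL le_normalizer
  obtain ⟨p, hp, e⟩ := (q.syl.mono (le_inf q.DA hD) inf_le_left).conj (hP.inf_normal inf_le_right n)
  refine ⟨p, hp, hSP.trans ?_⟩
  rw [← DG_cj, e]
  exact le_normalizer_inf le_normalizer (hP.le.trans n)

theorem Gq.adapt0 (q : Gq A z a b y w) (hS : IsPGroup 2 S) (hN : S ≤ 𝐍(A)) :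
    ∃ z1 a1 b1 y1 w1, Gq A z1 a1 b1 y1 w1 ∧ S ≤ 𝐍(DG a1 b1) := by
  obtain ⟨p, hp, e⟩ := MBH.ad q hS le_rfl hN (q.DA.trans le_normalizer)
  exact ⟨_, _, _, _, _, q.cjN (le_normalizer (mem_inf.1 hp).1), e⟩

theorem Gq.adapt (q : Gq A z a b y w) (hS : IsPGroup 2 S) (hN : S ≤ 𝐍(A)) {x : G} (hx : x ∈ A) (x2 : x * x = 1)
    (x1 : x ≠ 1) (hc : S ≤ centralizer {x}) : ∃ a1 b1 y1 w1, Gq A x a1 b1 y1 w1 ∧ S ≤ 𝐍(DG a1 b1) := by
  obtain ⟨p0, hp0, e0⟩ := q.cls1 hx x2 x1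
  have q1 := q.cjN (le_normalizer hp0)
  rw [e0] at q1
  obtain ⟨p, hp, e⟩ := MBH.ad q1 hS (L := 𝐍(A) ⊓ centralizer {x}) inf_le_left (le_inf hN hc)
    (le_inf (q1.DA.trans le_normalizer) fun d hd => mem_centralizer_singleton_iff.2 (q1.toDh.zc hd).symm)
  have q2 := q1.cjN (le_normalizer (mem_inf.1 hp).1)
  rw [mem_centralizer_singleton_iff.1 (mem_inf.1 (mem_inf.1 hp).2).2, mul_inv_cancel_right] at q2
  exact ⟨_, _, _, _, q2, e⟩

theorem Ti.CN (h : Ti A) {k g : G} (k2 : k * k = 1) (k1 : k ≠ 1) (hk : k ∈ 𝐂(A)) (c : g * k = k * g) : g ∈ 𝐍(A) := by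
  exact h g k k2 k1 hk (by rwa [c, mul_inv_cancel_right])

theorem Ti.cjg (h : Ti A) (g : G) : Ti (A ^ᶜ g) := by
  intro x k k2 k1 hk hx
  obtain ⟨x, rfl⟩ := ex g x
  obtain ⟨k, rfl⟩ := ex g k
  rw [cj3] at hx
  refine memN.2 (h x k ?_ (fun e => k1 (by rw [e]; group)) (memC.1 hk) (memC.1 hx))
  rw [conj_mul] at k2
  simpa using k2

omit [Finite G] in
theorem MBH.fo (h : Four A) (e : ∀ p ∈ A, ∀ q ∈ A, p * p = 1 → q * q = 1 → p * q = q * p →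
    ∃ g : G, g * p * g⁻¹ ∈ B ∧ g * q * g⁻¹ ∈ B) : Four B := by
  obtain ⟨p, hp, q, hq, p2, q2, c, p1, q1, n⟩ := h
  obtain ⟨g, h1, h2⟩ := e p hp q hq p2 q2 c
  exact ⟨_, h1, _, h2, cjsq p2 g, cjsq q2 g, by rw [conj_mul, conj_mul, c], cjne p1 g, cjne q1 g,
    fun k => n (eq_iff.1 k)⟩

theorem Four.cjg (h : Four 𝐂(A)) (g : G) : Four 𝐂(A ^ᶜ g) := by
  exact MBH.fo h fun p hp q hq _ _ _ => ⟨g, memC.2 hp, memC.2 hq⟩

theorem Four.syl (h : Four A) (hS : IsSylowIn 2 S A) : Four S := by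
  refine MBH.fo h fun p hp q hq p2 q2 c => ?_
  have n : zpowers p ≤ 𝐍(zpowers q) := le_normalizer_of_le_centralizer (by
    rw [centralizer_zpowers]; exact zpowers_le.2 (mem_centralizer_singleton_iff.2 c))
  obtain ⟨g, -, e⟩ := hS.exists_cj_le (isPGroup_sup_of_le_normalizer_right (P2.of_sq p2).zpowers
    (P2.of_sq q2).zpowers n) (sup_le (zpowers_le.2 hp) (zpowers_le.2 hq))
  exact ⟨g, e (cj_mem g (mem_sup_left (mem_zpowers p))), e (cj_mem g (mem_sup_right (mem_zpowers q)))⟩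

theorem Four.cen (h : Four A) {k : G} (hk : k ∈ A) (k2 : k * k = 1) : Four (A ⊓ centralizer {k}) := by
  obtain ⟨P, hP, hkP⟩ := exists_isSylowIn_le (P2.of_sq k2).zpowers (zpowers_le.2 hk)
  have kP : k ∈ P := hkP (mem_zpowers k)
  obtain ⟨p, hp, q, hq, p2, q2, c, p1, q1, n⟩ := h.syl hP
  by_cases hc : P ≤ centralizer {k}
  · exact ⟨p, ⟨hP.le hp, hc hp⟩, q, ⟨hP.le hq, hc hq⟩, p2, q2, c, p1, q1, n⟩
  have nb : P ≠ ⊥ := fun e => p1 (mem_bot.1 (e ▸ hp))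
  obtain ⟨u, hu⟩ := exists_prime_orderOf_dvd_card' 2
    (dvd_card_of_ne_bot hP.isP.to_inf_left (H69.center_ne_bot hP.isP nb))
  have o : orderOf (u : G) = 2 := by rw [← hu]; exact orderOf_coe u
  have u2 : (u : G) * u = 1 := by rw [← pow_two, ← o, pow_orderOf_eq_one]
  have u1 : (u : G) ≠ 1 := fun e => by rw [e, orderOf_one] at o; exact absurd o (by norm_num)
  have uc := mem_centralizer_iff_commute.1 (mem_inf.1 u.2).2
  refine ⟨k, ⟨hk, mem_centralizer_singleton_iff.2 rfl⟩, u, ⟨hP.le (mem_inf.1 u.2).1,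
    mem_centralizer_singleton_iff.2 (uc k kP).symm⟩, k2, u2, uc k kP, fun e => hc fun x _ => ?_, u1,
    fun e => hc fun x hx => ?_⟩
  · exact mem_centralizer_singleton_iff.2 (by rw [e, mul_one, one_mul])
  · exact mem_centralizer_singleton_iff.2 (by rw [e]; exact uc x hx)

end H16D
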