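import Mathlib
import Cfsg.Agent.Lib.HD8.MB

/-! The centraliser of the dihedral group. -/

set_option autoImplicit false

namespace H16D

open Subgroup H69 H36.SW H80.A6C

variable {G : Type*} [Group G] [Finite G] {A B S T E : Subgroup G} {z a b y w t a' b' y' w' : G}

theorem Gq.key (q : Gq A z a b y w) {x : G} (hx : x ∈ 𝐍(A)) (x2 : P2 x) (ca : x * a = a * x) (cb : x * b = b * x)
    {p r : G} (hp : p ∈ A) (hr : r ∈ A) (xp : x * p = p * x) (xr : x * r = r * x) (e1 : p * z * p⁻¹ = a)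
    (e2 : r * z * r⁻¹ = b) : x ∈ 𝐂(A) := by
  obtain ⟨n, hn⟩ := x2
  induction n generalizing x with
  | zero => rw [pow_zero, pow_one] at hn; rw [hn]; exact one_mem _
  | succ n ih =>
    exact q.m2 x hx (ih (mul_mem hx hx) (Commute.mul_left ca ca).eq (Commute.mul_left cb cb).eq
      (Commute.mul_left xp xp).eq (Commute.mul_left xr xr).eq (by rw [← pow_two, ← pow_mul, ← pow_succ', hn]))
      ca cb p hp r hr xp xr e1 e2

namespace MCH

theorem yw (q : Gq A z a b y w) {c : G} (hc : c ∈ 𝐍(A)) (c2 : P2 c) (ca : c * a = a * c) (cb : c * b = b * c)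
    (cy : c * y = y * c) (cw : c * w = w * c) : c ∈ 𝐂(A) := q.key hc c2 ca cb q.yA q.wA cy cw q.yz q.wz

theorem cz (q : Gq A z a b y w) {c : G} (ca : c * a = a * c) (cb : c * b = b * c) : c * z = z * c :=
  cD ca cb q.toDh.zD

theorem zmul (q : Gq A z a b y w) {c : G} (hc : c ∈ 𝐍(A)) (c2 : P2 c) (ca : c * a = a * c) (cb : c * b = b * c) :
    z * c ∈ 𝐍(A) ∧ P2 (z * c) ∧ z * c * a = a * (z * c) ∧ z * c * b = b * (z * c) :=
  ⟨mul_mem (le_normalizer q.zA) hc, (P2.of_sq q.zz).mul c2 (cz q ca cb).symm, (Commute.mul_left q.toDh.za ca).eq,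
    (Commute.mul_left q.toDh.zb cb).eq⟩

theorem zz (q : Gq A z a b y w) {c : G} (ca : c * a = a * c) (cb : c * b = b * c) (e : G) :
    z * c * (z * e) = c * e := by
  rw [← cz q ca cb, mul_assoc, q.toDh.l_zz]

theorem z1 (q : Gq A z a b y w) {c : G} (ca : c * a = a * c) (cb : c * b = b * c) (e : G) :
    c * (z * e) = z * (c * e) := by
  rw [← mul_assoc, cz q ca cb, mul_assoc]

theorem fin (q : Gq A z a b y w) {x c : G} (hx : x ∈ 𝐍(A)) (xD : x ∈ 𝐍(DG a b)) (s : Sp z a b x) (hc : c ∈ 𝐍(A))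
    (c2 : P2 c) (ca : c * a = a * c) (cb : c * b = b * c) (cy : c * y = y * c) (hk : c⁻¹ * (x * c * x⁻¹) ∈ 𝐂(A)) :
    c ∈ 𝐂(A) := by
  have xz : x⁻¹ * z * x = z := by rw [mul_assoc, ← q.toDh.Nz xD, inv_mul_cancel_left]
  have k : ∀ r ∈ A, c * r = r * c → x * (r * z * r⁻¹) * x⁻¹ = b → c ∈ 𝐂(A) := fun r hr cr e => by
    have rA := conj_mem_of_mem_normalizer hx hr
    refine q.key hc c2 ca cb q.yA rA cy ?_ q.yz ?_
    · have h1 : Commute (x * c * x⁻¹) (x * r * x⁻¹) := by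
        show _ = _
        rw [conj_mul, conj_mul, cr]
      have h2 : Commute (c⁻¹ * (x * c * x⁻¹)) (x * r * x⁻¹) := (hk _ rA).symm
      have := h1.mul_left h2.inv_left
      rwa [show x * c * x⁻¹ * (c⁻¹ * (x * c * x⁻¹))⁻¹ = c by group] at this
    · rw [← e]
      calc _ = x * (r * (x⁻¹ * z * x) * r⁻¹) * x⁻¹ := by group
        _ = _ := by rw [xz]
  rcases s.1 with e | e
  · exact k y q.yA cy (by rw [q.yz, e])
  · refine k y⁻¹ (inv_mem q.yA) (Commute.inv_right cy).eq ?_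
    have e1 : y * (z * a) * y⁻¹ = z := by
      rw [← conj_mul, q.yz, q.ya, q.toDh.l_az, q.aa, mul_one]
    have e2 : y⁻¹ * z * y⁻¹⁻¹ = z * a := by
      conv_lhs => rw [← e1]
      group
    rw [e2, ← conj_mul, e, q.toDh.Nz xD, mul_inv_cancel_right, q.toDh.l_zz]

end MCH

open MCH

theorem Gq.sqK (q : Gq A z a b y w) {c : G} (hc : c ∈ 𝐍(A)) (c2 : P2 c) (ca : c * a = a * c) (cb : c * b = b * c) :
    c * c ∈ 𝐂(A) := by
  obtain ⟨h1, h2⟩ := q.m1 c hc ca cb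
  refine yw q (mul_mem hc hc) (c2.mul c2 rfl) (Commute.mul_left ca ca).eq (Commute.mul_left cb cb).eq ?_ ?_
  · rcases h1 with h | h
    exacts [(Commute.mul_left h h).eq, zz q ca cb c ▸ (Commute.mul_left h h).eq]
  · rcases h2 with h | h
    exacts [(Commute.mul_left h h).eq, zz q ca cb c ▸ (Commute.mul_left h h).eq]

theorem Gq.typ (q : Gq A z a b y w) {c : G} (hc : c ∈ 𝐍(A)) (c2 : P2 c) (ca : c * a = a * c) (cb : c * b = b * c)
    (n1 : c ∉ 𝐂(A)) (n2 : z * c ∉ 𝐂(A)) :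
    (c * y = y * c ∧ z * c * w = w * (z * c)) ∨ (c * w = w * c ∧ z * c * y = y * (z * c)) := by
  obtain ⟨h1 | h1, h2 | h2⟩ := q.m1 c hc ca cb
  · exact absurd (yw q hc c2 ca cb h1 h2) n1
  · exact .inl ⟨h1, h2⟩
  · exact .inr ⟨h2, h1⟩
  · obtain ⟨k1, k2, k3, k4⟩ := zmul q hc c2 ca cb
    exact absurd (yw q k1 k2 k3 k4 h1 h2) n2

theorem Gq.tri (q : Gq A z a b y w) {c e : G} (hc : c ∈ 𝐍(A)) (he : e ∈ 𝐍(A)) (c2 : P2 c) (e2 : P2 e)
    (ce : P2 (c * e)) (ca : c * a = a * c) (cb : c * b = b * c) (ea : e * a = a * e) (eb : e * b = b * e) :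
    c ∈ 𝐂(A) ∨ z * c ∈ 𝐂(A) ∨ e ∈ 𝐂(A) ∨ z * e ∈ 𝐂(A) ∨ c * e ∈ 𝐂(A) ∨ z * (c * e) ∈ 𝐂(A) := by
  by_contra k
  simp only [not_or] at k
  obtain ⟨n1, n2, n3, n4, n5, n6⟩ := k
  have hm := mul_mem hc he
  have ma := (Commute.mul_left ca ea).eq
  have mb := (Commute.mul_left cb eb).eq
  obtain ⟨k1, k2, k3, k4⟩ := zmul q hm ce ma mb
  rcases q.typ hc c2 ca cb n1 n2 with ⟨h1, h2⟩ | ⟨h1, h2⟩ <;> rcases q.typ he e2 ea eb n3 n4 with ⟨h3, h4⟩ | ⟨h3, h4⟩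
  · exact n5 (yw q hm ce ma mb (Commute.mul_left h1 h3).eq (zz q ca cb e ▸ (Commute.mul_left h2 h4).eq))
  · exact n6 (yw q k1 k2 k3 k4 (z1 q ca cb e ▸ (Commute.mul_left h1 h4).eq)
      (mul_assoc z c e ▸ (Commute.mul_left h2 h3).eq))
  · exact n6 (yw q k1 k2 k3 k4 (mul_assoc z c e ▸ (Commute.mul_left h2 h3).eq)
      (z1 q ca cb e ▸ (Commute.mul_left h1 h4).eq))
  · exact n5 (yw q hm ce ma mb (zz q ca cb e ▸ (Commute.mul_left h2 h4).eq) (Commute.mul_left h1 h3).eq)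

theorem Gq.swp (q : Gq A z a b y w) {x c : G} (hx : x ∈ 𝐍(A)) (xD : x ∈ 𝐍(DG a b)) (s : Sp z a b x) (hc : c ∈ 𝐍(A))
    (c2 : P2 c) (ca : c * a = a * c) (cb : c * b = b * c) (p : P2 (c * (x * c * x⁻¹))) (n1 : c ∉ 𝐂(A))
    (n2 : z * c ∉ 𝐂(A)) : x * c * x⁻¹ * (z * c)⁻¹ ∈ 𝐂(A) := by
  have NK := normalizer_le_normalizer_centralizer A
  have ud : ∀ d ∈ DG a b, x * c * x⁻¹ * d = d * (x * c * x⁻¹) := fun d hd => by
    have := cD ca cb (conj_mem_of_mem_normalizer (inv_mem xD) hd)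
    calc _ = x * (c * (x⁻¹ * d * x⁻¹⁻¹)) * x⁻¹ := by group
      _ = _ := by rw [this]; group
  have back : ∀ {e : G}, x * e * x⁻¹ ∈ 𝐂(A) → e ∈ 𝐂(A) := fun {e} h => by
    have := conj_mem_of_mem_normalizer (NK (inv_mem hx)) h
    rwa [show x⁻¹ * (x * e * x⁻¹) * x⁻¹⁻¹ = e by group] at this
  have zu : x * (z * c) * x⁻¹ = z * (x * c * x⁻¹) := by
    rw [← conj_mul, q.toDh.Nz xD, mul_inv_cancel_right]
  obtain ⟨k1, k2, k3, k4⟩ := zmul q hc c2 ca cb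
  have cc := q.sqK hc c2 ca cb
  rcases q.tri hc (mul_mem (mul_mem hx hc) (inv_mem hx)) c2 (c2.conj x) p ca cb (ud a aD) (ud b bD) with
    h | h | h | h | h | h
  · exact absurd h n1
  · exact absurd h n2
  · exact absurd (back h) n1
  · exact absurd (back (zu ▸ h)) n2
  · have hk : c⁻¹ * (x * c * x⁻¹) ∈ 𝐂(A) := by
      have := mul_mem (inv_mem cc) h
      rwa [show (c * c)⁻¹ * (c * (x * c * x⁻¹)) = c⁻¹ * (x * c * x⁻¹) by group] at this
    rcases (q.m1 c hc ca cb).1 with cy | cy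
    · exact absurd (fin q hx xD s hc c2 ca cb cy hk) n1
    · refine absurd (fin q hx xD s k1 k2 k3 k4 cy ?_) n2
      rwa [zu, show (z * c)⁻¹ * (z * (x * c * x⁻¹)) = c⁻¹ * (x * c * x⁻¹) by group]
  · have := mul_mem (conj_mem_of_mem_normalizer (NK (inv_mem k1)) h) (inv_mem (zz q ca cb c ▸ cc))
    rwa [show (z * c)⁻¹ * (z * (c * (x * c * x⁻¹))) * (z * c)⁻¹⁻¹ * (z * c * (z * c))⁻¹ =
      x * c * x⁻¹ * (z * c)⁻¹ by group] at this

end H16D
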