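import Mathlib
import Cfsg.Agent.Lib.HD8.MC

/-! Rank one: the Sylow 2-subgroup of the centraliser is cyclic. -/

set_option autoImplicit false
set_option linter.unusedSectionVars false

namespace H16D

open Subgroup H69 H36.SW H80.A6C

variable {G : Type*} [Group G] [Finite G] {A B S T E : Subgroup G} {z a b y w t a' b' y' w' : G}

namespace CYH

theorem ncj {T : Subgroup G} {g k : G} (h : g ∈ 𝐍(T)) (ht : k ∈ T) : g * k * g⁻¹ ∈ T :=
  (mem_normalizer_iff.1 h k).1 ht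

theorem ex_inv {x : G} (h : P2 x) (h1 : x ≠ 1) : ∃ u ∈ zpowers x, u * u = 1 ∧ u ≠ 1 := by
  have : Fact (Nat.Prime 2) := ⟨Nat.prime_two⟩
  obtain ⟨u, hu, e⟩ := exists_orderOf_eq_prime h.zpowers (by simpa using h1)
  refine ⟨u, hu, by rw [← sq, ← e, pow_orderOf_eq_one], fun e1 => ?_⟩
  simp [e1] at e

end CYH

open CYH

theorem cyc_of_comm {R : Subgroup G} (hR : IsPGroup 2 R) (c : ∀ r ∈ R, ∀ s ∈ R, r * s = s * r)
    (u : ∀ r ∈ R, r * r = 1 → r = 1 ∨ r = t) : IsCyclic R := by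
  obtain ⟨g, hg⟩ := Finite.exists_max fun r : R => orderOf (r : G)
  have key : ∀ n : ℕ, ∀ x ∈ R, x ^ 2 ^ n = 1 → x ∈ zpowers (g : G) := by
    intro n
    induction n with
    | zero => intro x _ e; rw [pow_zero, pow_one] at e; exact e ▸ one_mem _
    | succ n ih =>
      intro x hx e
      obtain ⟨k, hk⟩ := ih (x ^ 2) (pow_mem hx 2) (by rw [← pow_mul, ← pow_succ', e])
      simp only at hk
      have cm : ∀ j : ℤ, (x * (g : G) ^ (-j)) * (x * (g : G) ^ (-j)) = x ^ 2 * (g : G) ^ (-(j + j)) := by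
        intro j
        rw [mul_assoc, ← mul_assoc ((g : G) ^ (-j)), c _ (zpow_mem g.2 _) x hx, sq]; group
      have fin : ∀ j : ℤ, x * (g : G) ^ (-j) ∈ zpowers (g : G) → x ∈ zpowers (g : G) := fun j hj =>
        (mul_mem_cancel_right (zpow_mem (mem_zpowers _) _)).1 hj
      have mem : ∀ j : ℤ, x * (g : G) ^ (-j) ∈ R := fun j => mul_mem hx (zpow_mem g.2 _)
      rcases Int.even_or_odd k with ⟨j, rfl⟩ | ⟨j, rfl⟩
      · refine fin j ?_
        rcases u _ (mem j) (by rw [cm, ← hk]; group) with e1 | e1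
        · rw [e1]; exact one_mem _
        by_cases g1 : (g : G) = 1
        · have := hg ⟨x, hx⟩
          simp only [g1, orderOf_one] at this
          have : x = 1 := orderOf_eq_one_iff.1 (le_antisymm this (orderOf_pos x))
          rw [this, one_mul]; exact zpow_mem (mem_zpowers _) _
        obtain ⟨v, hv, v2, v1⟩ := ex_inv (P2.of_mem hR g.2) g1
        rcases u v (zpowers_le.2 g.2 hv) v2 with e2 | e2
        · exact absurd e2 v1
        · rw [e1, ← e2]; exact hv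
      · refine fin j ?_
        by_cases e1 : x * (g : G) ^ (-j) = 1
        · rw [e1]; exact one_mem _
        exfalso
        have e2 : (x * (g : G) ^ (-j)) ^ 2 = g := by rw [sq, cm, ← hk]; group
        obtain ⟨v, hv, v2, v1⟩ := ex_inv (P2.of_mem hR (mem j)) e1
        have d1 : 2 ∣ orderOf (x * (g : G) ^ (-j)) := by
          have : Fact (Nat.Prime 2) := ⟨Nat.prime_two⟩
          rw [← orderOf_eq_prime (p := 2) (by rw [sq, v2]) v1]
          exact orderOf_dvd_of_mem_zpowers hv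
        have d2 := hg ⟨_, mem j⟩
        have d3 := orderOf_pow_of_dvd (x := x * (g : G) ^ (-j)) two_ne_zero d1
        rw [e2] at d3
        have := orderOf_pos (x * (g : G) ^ (-j))
        simp only at d2
        omega
  refine ⟨⟨g, fun x => ?_⟩⟩
  obtain ⟨n, hn⟩ := hR x
  obtain ⟨k, hk⟩ := key n x x.2 (by simpa using congrArg Subtype.val hn)
  exact ⟨k, Subtype.ext (by simpa using hk)⟩

namespace CYH

theorem TD (h : Tf A T t z a b y w) : T ≤ 𝐍(DG a b) := h.toGq.nD h.sT.isP h.DT h.TN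

theorem sqT (h : Tf A T t z a b y w) {c : G} (hc : c ∈ T) (ca : c * a = a * c) (cb : c * b = b * c) :
    c * c ∈ 𝐂(A) := h.toGq.sqK (h.TN hc) (P2.of_mem h.sT.isP hc) ca cb

theorem zT (h : Tf A T t z a b y w) {x : G} (hx : x ∈ T) : x * z = z * x := h.toDh.Nz (TD h hx)

theorem cT (h : Tf A T t z a b y w) {x : G} (hx : x ∈ T) : x * t = t * x :=
  mem_centralizer_singleton_iff.1 (h.sT.le hx)

end CYH

theorem Tf.low (h : Tf A T t z a b y w) {Q : Subgroup G} (hQ : Q ≤ T) (hn : T ≤ 𝐍(Q))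
    (hi : ∀ x ∈ Q, x ∈ 𝐂(A) → x = 1) {s : G} (u : ∀ x ∈ Q, x * x = 1 → x = 1 ∨ x = s)
    (ns : ∀ x ∈ Q, ¬ Sp z a b x) : ∀ x ∈ Q, ∀ x' ∈ Q, x * x' = x' * x := by
  have D := h.toDh
  have zz : z ∈ zpowers (a * b) := D.cc ▸ mul_mem (mem_zpowers _) (mem_zpowers _)
  have dec : ∀ x ∈ Q, ∃ d ∈ DG a b, ∃ c ∈ T, c * a = a * c ∧ c * b = b * c ∧ x = d * c := by
    intro x hx
    obtain ⟨d, hd, c, ca, cb, e⟩ := (D.aut (TD h (hQ hx))).resolve_right (ns x hx)
    exact ⟨d, hd, c, (mul_mem_cancel_left (h.DT hd)).1 (e ▸ hQ hx), ca, cb, e⟩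
  have cen : ∀ d ∈ DG a b, ∀ c, c * a = a * c → c * b = b * c → d * c * a = a * (d * c) →
      d * c * b = b * (d * c) → d ∈ zpowers (a * b) := by
    intro d hd c ca cb xa xb
    rw [mul_assoc, ca, ← mul_assoc, ← mul_assoc] at xa
    rw [mul_assoc, cb, ← mul_assoc, ← mul_assoc] at xb
    rcases D.cenD hd (mul_right_cancel xa) (mul_right_cancel xb) with rfl | rfl
    · exact one_mem _
    · exact zz
  have key : ∀ x ∈ Q, ∃ d ∈ DG a b, d ∈ zpowers (a * b) ∧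
      ∃ c ∈ T, c * a = a * c ∧ c * b = b * c ∧ x = d * c := by
    intro x hx
    obtain ⟨d, hd, c, hc, ca, cb, rfl⟩ := dec x hx
    refine ⟨d, hd, ?_, c, hc, ca, cb, rfl⟩
    by_cases zQ : z ∈ Q
    · by_cases d2 : d * d = 1
      · have e : d * c * (d * c) = c * c := by
          rw [mul_assoc, ← mul_assoc c, cD ca cb hd, mul_assoc, ← mul_assoc, d2, one_mul]
        have c1 := hi _ (e ▸ mul_mem hx hx) (sqT h hc ca cb)
        have zs := (u z zQ D.zz).resolve_left D.z1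
        rcases u _ hx (e.trans c1) with e1 | e1
        · exact cen d hd c ca cb (by simp [e1]) (by simp [e1])
        · exact cen d hd c ca cb (by rw [e1, ← zs, D.za]) (by rw [e1, ← zs, D.zb])
      · rcases D.four hd d2 with rfl | rfl
        · exact mem_zpowers _
        · rw [D.ba]; exact mul_mem zz (mem_zpowers _)
    · have st : ∀ p ∈ DG a b, c * p = p * c → d * p ≠ z * (p * d) := by
        intro p hp cp e
        refine zQ ?_
        have := mul_mem hx (ncj (hn (h.DT hp)) (inv_mem hx))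
        convert this using 1
        calc z = z * (p * d) * c * (d * c)⁻¹ * p⁻¹ := by group
          _ = d * (p * c) * (d * c)⁻¹ * p⁻¹ := by rw [← e]; group
          _ = _ := by rw [← cp]; group
      rcases D.cenD hd ((D.act1 hd).resolve_right (st a aD ca))
        ((D.act2 hd).resolve_right (st b bD cb)) with rfl | rfl
      · exact one_mem _
      · exact zz
  intro x hx x' hx'
  obtain ⟨d, hd, ⟨i, hi1⟩, c, hc, ca, cb, e⟩ := key x hx
  obtain ⟨d', hd', ⟨j, hj1⟩, c', hc', ca', cb', e'⟩ := key x' hx'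
  have dd : Commute d d' := by
    rw [← hi1, ← hj1]; exact Commute.zpow_zpow_self _ _ _
  have c1 : Commute c d := cD ca cb hd
  have c2 : Commute c d' := cD ca cb hd'
  have c3 : Commute c' d := cD ca' cb' hd
  have c4 : Commute c' d' := cD ca' cb' hd'
  have m : c * c * (c⁻¹ * c' * (c⁻¹ * c')) * (c' * c')⁻¹ ∈ 𝐂(A) :=
    mul_mem (mul_mem (sqT h hc ca cb) (sqT h (mul_mem (inv_mem hc) hc')
      ((Commute.inv_left ca).mul_left ca') ((Commute.inv_left cb).mul_left cb')))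
      (inv_mem (sqT h hc' ca' cb'))
  have e1 : x * x' = d * d' * (c * c') := by rw [e, e', c2.mul_mul_mul_comm]
  have e2 : x' * x = d * d' * (c' * c) := by rw [e, e', c3.mul_mul_mul_comm, dd.eq]
  have c5 : Commute (d * d') (c * c' * (c' * c)⁻¹) :=
    (((c1.mul_right c2).mul_left (c3.mul_right c4)).mul_left
      ((c3.mul_right c4).mul_left (c1.mul_right c2)).inv_left).symm
  have e3 : x * x' * (x' * x)⁻¹ = c * c * (c⁻¹ * c' * (c⁻¹ * c')) * (c' * c')⁻¹ := by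
    calc x * x' * (x' * x)⁻¹ = d * d' * (c * c' * (c' * c)⁻¹) * (d * d')⁻¹ := by rw [e1, e2]; group
      _ = _ := by rw [c5.eq]; group
  exact mul_inv_eq_one.1 (hi _ (mul_mem (mul_mem hx hx') (inv_mem (mul_mem hx' hx))) (e3 ▸ m))

namespace CYH

theorem claim (h : Tf A T t z a b y w)
    (na : ¬ ∀ r ∈ T ⊓ 𝐂(A), ∀ s ∈ T ⊓ 𝐂(A), r * s = s * r) {n : G} (hn : n ∈ 𝐍(T))
    (ne : n * t * n⁻¹ ≠ t) : n * t * n⁻¹ = z ∧ ∃ r ∈ T, r ∈ 𝐂(A) ∧ Sp z a b (n * r * n⁻¹) := by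
  have D := h.toDh
  have mQ : ∀ x, x ∈ (T ⊓ 𝐂(A)) ^ᶜ n ↔ ∃ r ∈ T ⊓ 𝐂(A), n * r * n⁻¹ = x := fun x => Iff.rfl
  have hQ : (T ⊓ 𝐂(A)) ^ᶜ n ≤ T := by
    rintro _ ⟨r, hr, rfl⟩; exact ncj hn hr.1
  have hN : T ≤ 𝐍(((T ⊓ 𝐂(A)) ^ᶜ n : Subgroup G)) := fun g hg => mem_normalizer_fintype (by
    rintro _ ⟨r, hr, rfl⟩
    have hg' := ncj (inv_mem hn) hg
    refine ⟨_, ⟨ncj (le_normalizer hg') hr.1,
      ncj (normalizer_le_normalizer_centralizer A (h.TN hg')) hr.2⟩, ?_⟩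
    simp [mul_assoc])
  have u : ∀ x ∈ (T ⊓ 𝐂(A)) ^ᶜ n, x * x = 1 → x = 1 ∨ x = n * t * n⁻¹ := by
    intro x hx x2
    obtain ⟨r, hr, rfl⟩ := (mQ x).1 hx
    have r2 : r * r = 1 := by
      calc r * r = n⁻¹ * (n * r * n⁻¹ * (n * r * n⁻¹)) * n := by group
        _ = 1 := by rw [x2]; group
    rcases h.rk r hr.1 hr.2 r2 with rfl | rfl <;> simp
  have hi : ∀ x ∈ (T ⊓ 𝐂(A)) ^ᶜ n, x ∈ 𝐂(A) → x = 1 := by
    intro x hx hk
    by_contra x1
    obtain ⟨v, hv, v2, v1⟩ := ex_inv (P2.of_mem h.sT.isP (hQ hx)) x1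
    have m := zpowers_le.2 hx hv
    exact ne (((u v m v2).resolve_left v1).symm.trans
      ((h.rk v (hQ m) (zpowers_le.2 hk hv) v2).resolve_left v1))
  by_cases ns : ∀ x ∈ (T ⊓ 𝐂(A)) ^ᶜ n, ¬ Sp z a b x
  · refine absurd (fun r hr s hs => ?_) na
    have := h.low hQ hN hi u ns _ ((mQ _).2 ⟨r, hr, rfl⟩) _ ((mQ _).2 ⟨s, hs, rfl⟩)
    calc r * s = n⁻¹ * (n * r * n⁻¹ * (n * s * n⁻¹)) * n := by group
      _ = _ := by rw [this]; group
  push Not at ns
  obtain ⟨x, hx, sp⟩ := ns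
  have m : x * a * x⁻¹ * a⁻¹ ∈ (T ⊓ 𝐂(A)) ^ᶜ n := by
    have := mul_mem hx (ncj (hN (h.DT aD)) (inv_mem hx))
    simpa [mul_assoc] using this
  have zQ : z ∈ (T ⊓ 𝐂(A)) ^ᶜ n := by
    refine D.norm_z (h.DT.trans hN) (mul_mem (ncj (TD h (hQ hx)) aD) (inv_mem aD)) m fun e => D.nab ?_
    rw [mul_inv_eq_one] at e
    rcases sp.1 with e1 | e1
    · rw [← e1, e]
    · rw [e] at e1
      rw [e1, mul_assoc, ← mul_assoc b, ← D.zb, mul_assoc]
  obtain ⟨r, hr, rfl⟩ := (mQ x).1 hx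
  exact ⟨((u z zQ D.zz).resolve_left D.z1).symm, r, hr.1, hr.2, sp⟩

theorem cenInv (h : Tf A T t z a b y w) {x v : G} (hx : x ∈ T) (sp : Sp z a b x) (hv : v ∈ T)
    (v2 : v * v = 1) (va : v * a = a * v) (vb : v * b = b * v) (vx : x * v = v * x) :
    v = 1 ∨ v = t ∨ v = z ∨ v = t * z := by
  have D := h.toDh
  by_cases n1 : v ∈ 𝐂(A)
  · rcases h.rk v hv n1 v2 with e | e <;> simp [e]
  by_cases n2 : z * v ∈ 𝐂(A)
  · have : z * v * (z * v) = 1 := by
      rw [mul_assoc, ← mul_assoc v, zT h hv, mul_assoc, v2, mul_one, D.zz]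
    rcases h.rk _ (mul_mem (h.DT D.zD) hv) n2 this with e | e
    · right; right; left
      rw [← D.l_zz v, e, mul_one]
    · right; right; right
      rw [← D.l_zz v, e, zT h h.tT]
  have e : x * v * x⁻¹ = v := by rw [vx, mul_inv_cancel_right]
  have := h.toGq.swp (h.TN hx) (TD h hx) sp (h.TN hv) (P2.of_sq v2) va vb
    (by rw [e, v2]; exact P2.of_sq (mul_one _)) n1 n2
  rw [e, _root_.mul_inv_rev, mul_inv_cancel_left, D.zi] at this
  exact absurd this h.toGq.zK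

end CYH

theorem Tf.cyc (h : Tf A T t z a b y w) {g : G} (hg : g * t * g⁻¹ = z ∨ g * t * g⁻¹ = t * z) :
    IsCyclic (T ⊓ 𝐂(A) : Subgroup G) := by
  refine cyc_of_comm (t := t) h.sT.isP.to_inf_left ?_ fun r hr => h.rk r hr.1 hr.2
  by_contra na
  have D := h.toDh
  have zt : z ≠ t := fun e => h.toGq.zK (e ▸ h.tA)
  have tzt : t * z ≠ t := fun e => D.z1 (by simpa using e)
  have cz : ∀ v, v = 1 ∨ v = t ∨ v = z ∨ v = t * z → ∀ x ∈ T, x * v = v * x := by
    rintro v (rfl | rfl | rfl | rfl) x hx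
    · simp
    · exact cT h hx
    · exact zT h hx
    · exact Commute.mul_right (cT h hx) (zT h hx)
  obtain ⟨n, hn, e⟩ := H25.A7.burnside h.sT (rfl : g * t * g⁻¹ = _) fun x hx =>
    mem_centralizer_singleton_iff.2 (cz _ (by tauto) x hx)
  obtain ⟨e1, r, hr, rK, sp⟩ := claim h na hn (by rcases hg with e' | e' <;> rw [e, e'] <;> assumption)
  have xT := ncj hn hr
  have cj : ∀ p q : G, p * q = q * p → n * p * n⁻¹ * (n * q * n⁻¹) = n * q * n⁻¹ * (n * p * n⁻¹) :=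
    fun p q c => by simp only [mul_assoc, inv_mul_cancel_left]; rw [← mul_assoc p, c, mul_assoc]
  have back : ∀ x : G, n * (n⁻¹ * x * n⁻¹⁻¹) * n⁻¹ = x := fun x => by group
  have zc : ∀ x ∈ T, n * z * n⁻¹ * x = x * (n * z * n⁻¹) := fun x hx => by
    have := cj _ _ (zT h (ncj (inv_mem hn) hx))
    rw [back] at this
    exact this.symm
  have e2 : n * z * n⁻¹ = t := by
    rcases cenInv h xT sp (ncj hn (h.DT D.zD)) (D.cj n).zz (zc _ (h.DT aD)) (zc _ (h.DT bD))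
      (zc _ xT).symm with e2 | e2 | e2 | e2
    · exact absurd e2 (D.cj n).z1
    · exact e2
    · exact absurd (by simpa using e2.trans e1.symm) zt
    · have e3 : n * n * t * (n * n)⁻¹ = t * z := by rw [← e2, ← e1]; group
      have := (claim h na (mul_mem hn hn) (e3 ▸ tzt)).1
      rw [e3] at this
      exact absurd (by simpa using this) h.t1
  have D' := D.cj n
  have le' : DG (n * a * n⁻¹) (n * b * n⁻¹) ≤ T := DG_le (ncj hn (h.DT aD)) (ncj hn (h.DT bD))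
  have nn : T ≤ 𝐍(DG (n * a * n⁻¹) (n * b * n⁻¹)) := fun g hg => mem_normalizer_fintype (by
    rw [← DG_cj]
    rintro _ ⟨d, hd, rfl⟩
    exact ⟨_, ncj (TD h (ncj (inv_mem hn) hg)) hd, by simp [mul_assoc]⟩)
  have cm : ∀ d ∈ DG a b, n * a * n⁻¹ * d = d * (n * a * n⁻¹) := by
    intro d hd
    by_contra ne
    have m1 : n * a * n⁻¹ * d * (n * a * n⁻¹)⁻¹ * d⁻¹ ∈ DG a b :=
      mul_mem (ncj (TD h (le' aD)) hd) (inv_mem hd)
    have m2 : n * a * n⁻¹ * d * (n * a * n⁻¹)⁻¹ * d⁻¹ ∈ DG (n * a * n⁻¹) (n * b * n⁻¹) := by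
      have := mul_mem aD (ncj (nn (h.DT hd)) (inv_mem aD))
      simpa only [mul_assoc] using this
    have := D'.norm_z (le'.trans (TD h)) m2 m1 fun e0 => ne (by
      rw [mul_inv_eq_one, mul_inv_eq_iff_eq_mul] at e0; exact e0)
    rw [e2] at this
    exact h.t1 (h.toGq.one (h.toGq.DA this) h.tA (P2.of_sq h.tt))
  have := cenInv h xT sp (le' aD) D'.aa (cm a aD) (cm b bD) (cj _ _ (rK a h.aA).symm)
  exact D'.nab (cz _ this _ (le' bD)).symm

end H16D
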