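import Mathlib
import Cfsg.Agent.Lib.HD8.Defs
import Cfsg.Agent.Lib.M37.Defs
import Cfsg.Agent.Lib.A7S.Cv
import Cfsg.Agent.Lib.GL.Basic
import Cfsg.Agent.S0497

/-! Covers of `A₆`. -/

set_option autoImplicit false

namespace H16D

open Subgroup H69 H36.SW H80.A6C

variable {X : Type} [Group X] [Finite X] {G : Type*} [Group G] [Finite G]
variable {J : Subgroup X} {A E : Subgroup G} {α : G → X} {t : G}

namespace EZH

omit [Finite G] in
theorem ex (c : Cov J A α) (sJ : IsSimpleGroup J) (h : Nat.card J = 360) :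
    ∃ ξ : A →* alternatingGroup (Fin 6), Function.Surjective ξ ∧ ξ.ker = center A := by
  obtain ⟨e⟩ := Cfsg.Agent.S0497.result h
  let f : A →* J := (c.hom.comp (inclusion le_normalizer)).codRestrict _ fun a => c.mem a a.2
  refine ⟨e.toMonoidHom.comp f, e.surjective.comp fun j => ?_, ?_⟩
  · obtain ⟨a, ha, e⟩ := c.onto j j.2
    exact ⟨⟨a, ha⟩, Subtype.ext e⟩
  · ext a
    rw [H25.A7.Cv.mem_center, ← c.ker _ (le_normalizer a.2), MonoidHom.mem_ker, MonoidHom.comp_apply,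
      MulEquiv.coe_toMonoidHom, EmbeddingLike.map_eq_one_iff, Subtype.ext_iff]
    rfl

omit [Finite X] [Finite G] in
theorem cardA (c : Cov J A α) (h : Nat.card J = 360) : Nat.card A = 360 * Nat.card (A ⊓ 𝐂(A) : Subgroup G) := by
  have e : c.im A = J := by
    ext x
    rw [c.mem_im]
    exact ⟨fun ⟨a, ha, _, e⟩ => e ▸ c.mem a ha, fun h =>
      let ⟨a, ha, e⟩ := c.onto x h; ⟨a, ha, le_normalizer ha, e⟩⟩
  rw [c.card_im le_normalizer, e, h]

end EZH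

theorem card9 {F : Type} [Field F] [Fintype F] (h : Fintype.card F = 9) : Nat.card (H60M.MC.P2F F) = 360 := by
  have := H10.card_PSL_two (F := F)
  rw [Nat.card_eq_fintype_card (α := F), h] at this
  norm_num at this
  change Nat.card (Matrix.ProjectiveSpecialLinearGroup (Fin 2) F) = 360
  omega

theorem iso6 (c : Cov J A α) (sJ : IsSimpleGroup J) (h : Nat.card J = 360) (hb : A ⊓ 𝐂(A) = ⊥) :
    Nonempty (A ≃* alternatingGroup (Fin 6)) := by
  obtain ⟨ξ, hs, hk⟩ := EZH.ex c sJ h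
  exact ⟨MulEquiv.ofBijective ξ ⟨(MonoidHom.ker_eq_bot_iff _).1 (by rw [hk, H25.A7.center_eq_bot, hb]), hs⟩⟩

theorem cen6 (c : Cov J A α) (sJ : IsSimpleGroup J) (h : Nat.card J = 360) :
    A ⊓ 𝐂(A) = ⊥ ∨ (27 ∣ Nat.card A ∧ ∃ k ∈ A, k ∈ 𝐂(A) ∧ k ^ 3 = 1 ∧ k ≠ 1) := by
  obtain ⟨ξ, hs, hk⟩ := EZH.ex c sJ h
  have d := H78.Schur.card_ker_inf_dvd (Cfsg.Agent.S2116.result 6 (Or.inl rfl)) ξ hs hk.le
  rw [H25.A7.Cv.perf_iff.2 c.perf, inf_top_eq, Nat.card_congr Multiplicative.toAdd, Nat.card_zmod, hk,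
    H25.A7.card_center] at d
  have h2 : ¬ 2 ∣ Nat.card (A ⊓ 𝐂(A) : Subgroup G) := by
    intro h2
    obtain ⟨x, hx⟩ := exists_prime_orderOf_dvd_card' 2 h2
    have := c.odd' x.2.1 x.2.2
    rw [orderOf_coe, hx] at this
    exact absurd this (by decide)
  have e : Nat.card (A ⊓ 𝐂(A) : Subgroup G) = 1 ∨ Nat.card (A ⊓ 𝐂(A) : Subgroup G) = 3 := by
    have := Nat.le_of_dvd (by norm_num) d
    generalize Nat.card (A ⊓ 𝐂(A) : Subgroup G) = n at *
    interval_cases n <;> simp_all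
  refine e.imp card_eq_one.1 fun e => ⟨by rw [EZH.cardA c h, e]; norm_num, ?_⟩
  have : Fact (Nat.Prime 3) := ⟨by norm_num⟩
  obtain ⟨x, hx⟩ := exists_prime_orderOf_dvd_card' (G := (A ⊓ 𝐂(A) : Subgroup G)) 3 (e ▸ dvd_rfl)
  rw [← orderOf_coe] at hx
  refine ⟨x, x.2.1, x.2.2, hx ▸ pow_orderOf_eq_one _, fun e => ?_⟩
  rw [e, orderOf_one] at hx
  omega

theorem ex5 (c : Cov J A α) (h : Nat.card J = 360) : ∃ x ∈ A, x ^ 5 = 1 ∧ x ≠ 1 := by
  have : Fact (Nat.Prime 5) := ⟨by norm_num⟩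
  obtain ⟨x, hx⟩ := exists_prime_orderOf_dvd_card' (G := A) 5
    (by rw [EZH.cardA c h]; exact Dvd.dvd.mul_right (by norm_num) _)
  rw [← orderOf_coe] at hx
  refine ⟨x, x.2, hx ▸ pow_orderOf_eq_one _, fun e => ?_⟩
  rw [e, orderOf_one] at hx
  omega

end H16D
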