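import Mathlib
import Cfsg.Agent.Lib.HD8.MC
import Cfsg.Agent.Lib.A6C.Bas

/-! Rank one: the local frame. -/

set_option autoImplicit false

namespace H16D

open Subgroup H69 H36.SW H80.A6C

variable {G : Type*} [Group G] [Finite G] {A B S T E : Subgroup G} {z a b y w t a' b' y' w' : G}

theorem Tf.lf (h : Tf A T t z a b y w) (cyc : IsCyclic (T ⊓ 𝐂(A) : Subgroup G)) :
    ∃ F : Lf G, F.t = t ∧ F.z = z ∧ F.T = T ∧ F.R = T ⊓ 𝐂(A) := by
  have q := h.toGq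
  have p := q.toDh
  have T2 : ∀ x ∈ T, P2 x := fun x hx => .of_mem h.sT.isP hx
  have nD : T ≤ 𝐍(DG a b) := q.nD h.sT.isP h.DT h.TN
  have zT : z ∈ T := h.DT p.zD
  obtain ⟨f, fT, fa, fb, hf, hf'⟩ : ∃ f ∈ T, f * a = a * f ∧ f * b = b * f ∧
      (f = 1 ∨ (f ∉ 𝐂(A) ∧ z * f ∉ 𝐂(A))) ∧ ∀ c ∈ T, c * a = a * c → c * b = b * c →
        c ∈ 𝐂(A) ∨ z * c ∈ 𝐂(A) ∨ (f ∉ 𝐂(A) ∧ z * f ∉ 𝐂(A)) := by
    by_cases hx : ∃ c ∈ T, c * a = a * c ∧ c * b = b * c ∧ c ∉ 𝐂(A) ∧ z * c ∉ 𝐂(A)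
    · obtain ⟨c, hc, ca, cb, n⟩ := hx
      exact ⟨c, hc, ca, cb, .inr n, fun _ _ _ _ => .inr (.inr n)⟩
    · refine ⟨1, one_mem _, by simp, by simp, .inl rfl, fun c hc ca cb => by_contra fun k => hx ?_⟩
      simp only [not_or] at k
      exact ⟨c, hc, ca, cb, k.1, k.2.1⟩
  have D0 : DG a b ≤ T ⊓ 𝐂(A) ⊔ closure ({a, b, f} : Set G) :=
    (Subgroup.closure_mono (by rintro _ (rfl | rfl) <;> simp)).trans le_sup_right
  have f0 : f ∈ T ⊓ 𝐂(A) ⊔ closure ({a, b, f} : Set G) := mem_sup_right (subset_closure (by simp))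
  have sp : ∀ x ∈ T, x ∉ T ⊓ 𝐂(A) ⊔ closure ({a, b, f} : Set G) → Sp z a b x := fun x hx m => by
    refine (p.aut (nD hx)).resolve_left ?_
    rintro ⟨d, hd, c, ca, cb, rfl⟩
    have cT : c ∈ T := (T.mul_mem_cancel_left (h.DT hd)).1 hx
    refine m (mul_mem (D0 hd) ?_)
    have k1 : ∀ u ∈ T, u ∈ 𝐂(A) ∨ z * u ∈ 𝐂(A) → u ∈ T ⊓ 𝐂(A) ⊔ closure ({a, b, f} : Set G) := by
      rintro u hu (k | k)
      · exact mem_sup_left ⟨hu, k⟩
      · exact (Subgroup.mul_mem_cancel_left _ (D0 p.zD)).1 (mem_sup_left ⟨T.mul_mem zT hu, k⟩)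
    rcases hf' c cT ca cb with k | k | k
    · exact k1 c cT (.inl k)
    · exact k1 c cT (.inr k)
    rcases q.tri (h.TN cT) (h.TN fT) (T2 c cT) (T2 f fT) (T2 _ (mul_mem cT fT)) ca cb fa fb with
      e | e | e | e | e
    · exact k1 c cT (.inl e)
    · exact k1 c cT (.inr e)
    · exact absurd e k.1
    · exact absurd e k.2
    · exact (Subgroup.mul_mem_cancel_right _ f0).1 (k1 _ (mul_mem cT fT) e)
  have nsp : ∀ x ∈ T, ¬ Sp z a b x → x ∈ T ⊓ 𝐂(A) ⊔ closure ({a, b, f} : Set G) :=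
    fun x hx n => by_contra fun m => n (sp x hx m)
  exact ⟨{
    T := T, R := T ⊓ 𝐂(A), t := t, z := z, v1 := a, v2 := b, f := f
    syl := h.sT, tt := h.tt, t1 := h.t1, zz := p.zz, z1 := p.z1, v11 := p.aa, v22 := p.bb, hz := p.hz
    v1T := h.DT aD, v2T := h.DT bD, fT := fT
    RT := inf_le_left
    tR := ⟨h.tT, h.tA⟩
    zR := fun m => q.zK m.2
    cyc := cyc
    Rn := le_normalizer_inf le_normalizer (le_normalizer_centralizer h.TN)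
    Dn := nD
    Rv1 := fun r hr => (hr.2 a q.aA).symm
    Rv2 := fun r hr => (hr.2 b q.bA).symm
    fv1 := fa
    fv2 := fb
    ff := ⟨mul_mem fT fT, q.sqK (h.TN fT) (T2 f fT) fa fb⟩
    hf := hf.imp_right fun k => ⟨fun m => k.1 m.2, fun m => k.2 m.2⟩
    idx := fun x hx y hy mx my => nsp _ (mul_mem hx hy) (p.sp_mul (nD hx) (sp x hx mx) (sp y hy my))
    sw1 := fun x hx m => (sp x hx m).1
    sw2 := fun x hx m => (sp x hx m).2
    swf := fun x hx m f1 => by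
      have k := hf.resolve_left f1
      have m1 := mul_mem (mul_mem hx fT) (inv_mem hx)
      exact ⟨T.mul_mem m1 (T.inv_mem (mul_mem zT fT)), q.swp (h.TN hx) (nD hx) (sp x hx m) (h.TN fT) (T2 f fT) fa fb
        (T2 _ (mul_mem fT m1)) k.1 k.2⟩ }, rfl, rfl, rfl, rfl⟩

end H16D
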