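import Mathlib
import Cfsg.Agent.Lib.HD8.MC

/-! Commuting involutions of the normaliser. -/

set_option autoImplicit false
set_option linter.unusedSectionVars false

namespace H16D

open Subgroup H69 H36.SW H80.A6C

variable {G : Type*} [Group G] [Finite G] {A B S T E : Subgroup G} {z a b y w t a' b' y' w' : G}

namespace MOH

theorem sq1 (q : Gq A z a b y w) {d c : G} (hd : d ∈ DG a b) (cd : c * d = d * c) (hc : c * c ∈ 𝐂(A))
    (v2 : d * c * (d * c) = 1) : d * d = 1 ∧ c * c = 1 := by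
  have e : d * d * (c * c) = 1 := by
    rw [← v2]
    calc d * d * (c * c) = d * (d * c) * c := by group
      _ = d * (c * d) * c := by rw [cd]
      _ = _ := by group
  have e1 : d * d = 1 := q.one (q.DA (mul_mem hd hd)) (eq_inv_of_mul_eq_one_left e ▸ inv_mem hc)
    (q.toDh.p2 (mul_mem hd hd))
  exact ⟨e1, by rwa [e1, one_mul] at e⟩

theorem inn0 (q : Gq A z a b y w) {d k : G} (hd : d ∈ DG a b) (hk : k ∈ 𝐂(A)) (v2 : d * k * (d * k) = 1) :
    In A (d * k) := by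
  have cd : d * k = k * d := hk d (q.DA hd)
  obtain ⟨h1, h2⟩ := sq1 q hd cd.symm (mul_mem hk hk) v2
  exact ⟨d, q.DA hd, k, hk, h1, h2, cd⟩

theorem inn (q : Gq A z a b y w) {d c : G} (hd : d ∈ DG a b) (hk : c ∈ 𝐂(A) ∨ z * c ∈ 𝐂(A))
    (v2 : d * c * (d * c) = 1) : In A (d * c) := by
  rcases hk with hk | hk
  · exact inn0 q hd hk v2
  · have e : d * c = d * z * (z * c) := by rw [mul_assoc, q.toDh.l_zz]
    rw [e] at v2 ⊢
    exact inn0 q (mul_mem hd q.toDh.zD) hk v2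

theorem dec (q : Gq A z a b y w) (hS : IsPGroup 2 S) (hD : DG a b ≤ S) (hN : S ≤ 𝐍(A)) {v : G} (hv : v ∈ S)
    (v2 : v * v = 1) (ns : ¬ Sp z a b v) (ni : ¬ In A v) : ∃ d ∈ DG a b, ∃ c ∈ S, c * a = a * c ∧ c * b = b * c ∧
      v = d * c ∧ c ∉ 𝐂(A) ∧ z * c ∉ 𝐂(A) ∧ d * d = 1 := by
  obtain ⟨d, hd, c, ca, cb, rfl⟩ := (q.toDh.aut (q.nD hS hD hN hv)).resolve_right ns
  have hc : c ∈ S := (mul_mem_cancel_left (hD hd)).1 hv
  exact ⟨d, hd, c, hc, ca, cb, rfl, fun k => ni (inn q hd (Or.inl k) v2), fun k => ni (inn q hd (Or.inr k) v2),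
    (sq1 q hd (cD ca cb hd) (q.sqK (hN hc) (P2.of_mem hS hc) ca cb) v2).1⟩

theorem ne (h : Dh z a b) {e f : G} (he : e = b ∨ e = z * b) (hf : f = a ∨ f = z * a) : e * z ≠ f := by
  intro k
  have c : f * b = b * f := by
    rw [← k]
    rcases he with rfl | rfl <;> simp only [mul_assoc, h.zb, h.l_bz]
  rcases hf with rfl | rfl
  · exact h.nab c
  · rw [h.l_bz, mul_assoc] at c
    exact h.nab (mul_left_cancel c)

theorem half (h : Dh z a b) {s d : G} (sz : s * z * s⁻¹ = z) (sa : s * a * s⁻¹ = b ∨ s * a * s⁻¹ = z * b)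
    (hd : d = a ∨ d = z * a) : s * d * s⁻¹ * z ≠ d := by
  refine ne h ?_ hd
  rcases hd with rfl | rfl
  · exact sa
  · rw [← conj_mul, sz]
    rcases sa with e | e <;> rw [e]
    · exact Or.inr rfl
    · exact Or.inl (h.l_zz b)

theorem sw (q : Gq A z a b y w) (hS : IsPGroup 2 S) (hD : DG a b ≤ S) (hN : S ≤ 𝐍(A)) {s v : G} (hs : s ∈ S)
    (hv : v ∈ S) (sp : Sp z a b s) (v2 : v * v = 1) (ns : ¬ Sp z a b v) (cm : s * v = v * s) : In A v := by
  by_contra ni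
  obtain ⟨d, hd, c, hc, ca, cb, rfl, n1, n2, d2⟩ := dec q hS hD hN hv v2 ns ni
  have h := q.toDh
  have sD := q.nD hS hD hN hs
  have k := q.swp (hN hs) sD sp (hN hc) (P2.of_mem hS hc) ca cb
    (P2.of_mem hS (mul_mem hc (mul_mem (mul_mem hs hc) (inv_mem hs)))) n1 n2
  have e : s * c * s⁻¹ * (z * c)⁻¹ = (s * d * s⁻¹)⁻¹ * d * z⁻¹ := by
    have : s * c * s⁻¹ = (s * d * s⁻¹)⁻¹ * (s * (d * c) * s⁻¹) := by group
    rw [this, cm]
    group
  have m : (s * d * s⁻¹)⁻¹ * d * z⁻¹ ∈ DG a b :=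
    mul_mem (mul_mem (inv_mem (conj_mem_of_mem_normalizer sD hd)) hd) (inv_mem h.zD)
  rw [e] at k
  have e1 := q.one (q.DA m) k (h.p2 m)
  have e2 : s * d * s⁻¹ * z = d := by
    rw [mul_inv_eq_one, inv_mul_eq_iff_eq_mul] at e1
    exact e1.symm
  have sz : s * z * s⁻¹ = z := mul_inv_eq_iff_eq_mul.2 (h.Nz sD)
  rcases h.invD hd d2 with f | f | f | f | f | f
  · rw [f, mul_one, mul_inv_cancel, one_mul] at e2
    exact h.z1 e2
  · rw [f, sz, h.zz] at e2
    exact h.z1 e2.symm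
  · exact half h sz sp.1 (Or.inl f) e2
  · exact half h sz sp.1 (Or.inr f) e2
  · exact half h.symm sz sp.2 (Or.inl f) e2
  · exact half h.symm sz sp.2 (Or.inr f) e2

end MOH

theorem Gq.out (q : Gq A z a b y w) {x u : G} (hx : x ∈ 𝐍(A)) (hu : u ∈ 𝐍(A)) (x2 : x * x = 1) (u2 : u * u = 1)
    (c : x * u = u * x) : In A x ∨ In A u ∨ In A (x * u) := by
  have p0 : IsPGroup 2 (zpowers x ⊔ zpowers u : Subgroup G) :=
    isPGroup_sup_of_le_normalizer_right (P2.of_sq x2).zpowers (P2.of_sq u2).zpowers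
      (le_normalizer_of_le_centralizer (by
        rw [centralizer_zpowers]
        exact zpowers_le.2 (mem_centralizer_singleton_iff.2 c)))
  have n0 : zpowers x ⊔ zpowers u ≤ 𝐍(A) := sup_le (zpowers_le.2 hx) (zpowers_le.2 hu)
  obtain ⟨z, a, b, y, w, q, nD⟩ := q.adapt0 p0 n0
  have hS := isPGroup_sup_of_le_normalizer_right p0 q.toDh.isP nD
  have hD : DG a b ≤ zpowers x ⊔ zpowers u ⊔ DG a b := le_sup_right
  have hN : zpowers x ⊔ zpowers u ⊔ DG a b ≤ 𝐍(A) := sup_le n0 (q.DA.trans le_normalizer)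
  have xS : x ∈ zpowers x ⊔ zpowers u ⊔ DG a b := mem_sup_left (mem_sup_left (mem_zpowers x))
  have uS : u ∈ zpowers x ⊔ zpowers u ⊔ DG a b := mem_sup_left (mem_sup_right (mem_zpowers u))
  have xu2 : x * u * (x * u) = 1 := by
    calc x * u * (x * u) = x * (u * x) * u := by group
      _ = x * x * (u * u) := by rw [← c]; group
      _ = 1 := by rw [x2, u2, one_mul]
  by_cases sx : Sp z a b x
  · by_cases su : Sp z a b u
    · exact Or.inr (Or.inr (MOH.sw q hS hD hN xS (mul_mem xS uS) sx xu2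
        (q.toDh.sp_mul (q.nD hS hD hN xS) sx su) (by rw [mul_assoc, c])))
    · exact Or.inr (Or.inl (MOH.sw q hS hD hN xS uS sx u2 su c))
  by_cases su : Sp z a b u
  · exact Or.inl (MOH.sw q hS hD hN uS xS su x2 sx c.symm)
  by_contra! n
  obtain ⟨d, hd, e, he, ea, eb, rfl, n1, n2, -⟩ := MOH.dec q hS hD hN xS x2 sx n.1
  obtain ⟨d', hd', e', he', ea', eb', rfl, n1', n2', -⟩ := MOH.dec q hS hD hN uS u2 su n.2.1
  have k : e * e' ∈ 𝐂(A) ∨ z * (e * e') ∈ 𝐂(A) :=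
    ((((q.tri (hN he) (hN he') (P2.of_mem hS he) (P2.of_mem hS he') (P2.of_mem hS (mul_mem he he'))
      ea eb ea' eb').resolve_left n1).resolve_left n2).resolve_left n1').resolve_left n2'
  have r : d * e * (d' * e') = d * d' * (e * e') := by
    calc d * e * (d' * e') = d * (e * d') * e' := by group
      _ = _ := by rw [cD ea eb hd']; group
  rw [r] at xu2
  exact n.2.2 (r ▸ MOH.inn q (mul_mem hd hd') k xu2)

end H16D
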