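import Mathlib
import Cfsg.Agent.Lib.HD8.MO

/-! The outer involutions of the model. -/

set_option autoImplicit false

namespace H16D

open Subgroup H69 H36.SW H80.A6C

variable {X : Type} [Group X] [Finite X] {J : Subgroup X}

namespace MJH

omit [Finite X] in
theorem nrm (m : Mo J) (x : X) : x ∈ 𝐍(J) := by
  have := m.nJ
  rw [normalizer_eq_top]; trivial

omit [Finite X] in
theorem cen (m : Mo J) {x : X} (h : x ∈ 𝐂(J)) : x = 1 := m.cJ x fun j hj => (mem_centralizer_iff.1 h j hj).symm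

theorem frame (m : Mo J) {x : X} (h : P2 x) : ∃ z a b y w, Gq J z a b y w ∧ x ∈ 𝐍(DG a b) := by
  obtain ⟨z, a, b, y, w, q⟩ := m.fr
  obtain ⟨z, a, b, y, w, q, hx⟩ := q.adapt0 h.zpowers fun g _ => nrm m g
  exact ⟨z, a, b, y, w, q, hx (mem_zpowers x)⟩

theorem dc (m : Mo J) {z a b y w d c : X} (q : Gq J z a b y w) (hd : d ∈ DG a b) (ca : c * a = a * c)
    (cb : c * b = b * c) (h : P2 (d * c)) : P2 c ∧ c * c = 1 ∧ d * c * (d * c) = d * d := by
  have e := cD ca cb hd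
  have p : P2 c := by
    have := (q.toDh.p2 hd).inv.mul h (by rw [mul_assoc d, ← (cD ca cb (inv_mem hd)).symm]; group)
    rwa [inv_mul_cancel_left] at this
  have c2 := cen m (q.sqK (nrm m c) p ca cb)
  exact ⟨p, c2, by rw [mul_assoc, ← mul_assoc c, e, mul_assoc, c2, mul_one]⟩

omit [Finite X] in
theorem fin {x n e : X} (hn : n ∈ J) (x2 : x * x = 1) (e2 : e * e = 1) (e1 : e ≠ 1) (c : x * e = e * x)
    (h : n * x * n⁻¹ = e * x) : ∃ n ∈ J, n * x * n⁻¹ ≠ x ∧ x * (n * x * n⁻¹) * (x * (n * x * n⁻¹)) = 1 := by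
  refine ⟨n, hn, by rw [h]; simpa using e1, ?_⟩
  rw [h, ← mul_assoc x e, c, mul_assoc e, x2, mul_one, e2]

omit [Finite X] in
theorem nsw {z a b x : X} (h : Dh z a b) (s : x * a * x⁻¹ = b ∨ x * a * x⁻¹ = z * b) : x * a * x⁻¹ ≠ z * a := by
  intro e
  rw [e] at s
  apply h.nab
  rcases s with s | s
  · rw [← s, h.l_az, mul_assoc]
  · rw [mul_left_cancel s]

omit [Finite X] in
theorem out1 {z a b y x : X} (h : Dh z a b) (yJ : y ∈ J) (x2 : x * x = 1) (xa : x * a = a * x) (xz : x * z = z * x)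
    (yz : y * z * y⁻¹ = a) (c : z * x * y = y * (z * x)) :
    ∃ n ∈ J, n * x * n⁻¹ ≠ x ∧ x * (n * x * n⁻¹) * (x * (n * x * n⁻¹)) = 1 := by
  refine fin (e := z * a) yJ x2 (by rw [mul_assoc, h.l_az, h.aa, mul_one, h.zz]) h.za1
    (by rw [← mul_assoc, xz, mul_assoc, xa, mul_assoc]) ?_
  calc y * x * y⁻¹ = y * z * y⁻¹ * (y * (z * x) * y⁻¹) := by simp only [mul_assoc, inv_mul_cancel_left, h.l_zz]
    _ = _ := by rw [yz, ← c, mul_inv_cancel_right, ← mul_assoc, h.za]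

omit [Finite X] in
theorem out2 {z a b c d : X} (h : Dh z a b) (bJ : b ∈ J) (x2 : d * c * (d * c) = 1) (cb : c * b = b * c)
    (xz : d * c * z = z * (d * c)) (hd : d = a ∨ d = z * a) :
    ∃ n ∈ J, n * (d * c) * n⁻¹ ≠ d * c ∧ d * c * (n * (d * c) * n⁻¹) * (d * c * (n * (d * c) * n⁻¹)) = 1 := by
  refine fin bJ x2 h.zz h.z1 xz ?_
  rw [mul_inv_eq_iff_eq_mul, mul_assoc, mul_assoc, cb]
  rcases hd with rfl | rfl <;> simp only [mul_assoc, h.l_ba, h.l_bz]

end MJH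

open MJH

theorem Mo.sq4 (m : Mo J) (x : X) (h : x * x * (x * x) = 1) : x * x ∈ J := by
  have p : P2 x := (P2.of_sq h).of_mul_self
  obtain ⟨z, a, b, y, w, q, hx⟩ := frame m p
  have D := q.toDh
  rcases D.aut hx with ⟨d, hd, c, ca, cb, rfl⟩ | s
  · rw [(dc m q hd ca cb p).2.2]
    exact mul_mem (q.DA hd) (q.DA hd)
  obtain ⟨d, hd, c, ca, cb, e⟩ := (D.aut (mul_mem hx hx)).resolve_right (D.sp_mul hx s s)
  obtain ⟨pc, c2, e2⟩ := dc m q hd ca cb (e ▸ P2.of_sq h)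
  by_contra hn
  have n1 : c ∉ 𝐂(J) := fun k => hn (by rw [e, cen m k, mul_one]; exact q.DA hd)
  have n2 : z * c ∉ 𝐂(J) := fun k => hn (by
    rw [e, eq_inv_of_mul_eq_one_right (cen m k)]; exact mul_mem (q.DA hd) (inv_mem q.zA))
  have hd' : x * d * x⁻¹ ∈ DG a b := (mem_normalizer_iff.1 hx d).1 hd
  have e3 : x * d * x⁻¹ * (x * c * x⁻¹) = d * c := by
    rw [conj_mul, ← e]; group
  have e4 : x * c * x⁻¹ = (x * d * x⁻¹)⁻¹ * d * c := by rw [mul_assoc _ d, ← e3]; group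
  have e5 := cen m (q.swp (nrm m x) hx s (nrm m c) pc ca cb (by
    rw [e4, ← mul_assoc, cD ca cb (mul_mem (inv_mem hd') hd), mul_assoc, c2, mul_one]
    exact D.p2 (mul_mem (inv_mem hd') hd)) n1 n2)
  rw [mul_inv_eq_one] at e5
  rw [e5, ← mul_assoc] at e3
  have e6 : x * d * x⁻¹ = z * d := by
    rw [D.zc hd, ← D.zi]
    exact eq_mul_inv_of_mul_eq (mul_right_cancel e3)
  have xz : ∀ u, x * (z * u) * x⁻¹ = z * (x * u * x⁻¹) := fun u => by
    rw [← mul_assoc, D.Nz hx]; group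
  rcases D.invD hd (by rw [← e2, ← e, h]) with rfl | rfl | rfl | rfl | rfl | rfl
  · exact D.z1 (by simpa using e6.symm)
  · rw [D.Nz hx, mul_inv_cancel_right, D.zz] at e6
    exact D.z1 e6
  · exact nsw D s.1 e6
  · rw [xz] at e6
    exact nsw D s.1 (mul_left_cancel e6)
  · exact nsw D.symm s.2 e6
  · rw [xz] at e6
    exact nsw D.symm s.2 (mul_left_cancel e6)

theorem Mo.cls (m : Mo J) (x : X) (hx : x ∉ J) (x2 : x * x = 1) :
    ∃ n ∈ J, n * x * n⁻¹ ≠ x ∧ x * (n * x * n⁻¹) * (x * (n * x * n⁻¹)) = 1 := by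
  have p : P2 x := P2.of_sq x2
  obtain ⟨z, a, b, y, w, q, hN⟩ := frame m p
  have D := q.toDh
  have xz := D.Nz hN
  rcases D.aut hN with ⟨d, hd, c, ca, cb, rfl⟩ | s
  · have e2 := (dc m q hd ca cb p).2.2
    have key : d * c * a = a * (d * c) → d * c * b = b * (d * c) →
        ∃ n ∈ J, n * (d * c) * n⁻¹ ≠ d * c ∧ d * c * (n * (d * c) * n⁻¹) * (d * c * (n * (d * c) * n⁻¹)) = 1 :=
      fun xa xb => by
        rcases q.typ (nrm m _) p xa xb (fun k => hx (by rw [cen m k]; exact one_mem _)) (fun k => hx (by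
          rw [eq_inv_of_mul_eq_one_right (cen m k)]; exact inv_mem q.zA)) with k | k
        · exact out1 D.symm q.wA x2 xb xz q.wz k.2
        · exact out1 D q.yA x2 xa xz q.yz k.2
    rcases D.invD hd (by rw [← e2, x2]) with k | k | k | k | k | k
    · exact key (by rw [k, one_mul, ca]) (by rw [k, one_mul, cb])
    · exact key (by rw [k, mul_assoc, ca, D.l_az]) (by rw [k, mul_assoc, cb, D.l_bz])
    · exact out2 D q.bA x2 cb xz (Or.inl k)
    · exact out2 D q.bA x2 cb xz (Or.inr k)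
    · exact out2 D.symm q.aA x2 ca xz (Or.inl k)
    · exact out2 D.symm q.aA x2 ca xz (Or.inr k)
  have xi : x⁻¹ = x := inv_eq_of_mul_eq_one_right x2
  have xx : ∀ u, x * (x * u) = u := fun u => by rw [← mul_assoc, x2, one_mul]
  have e : x * (a * b) * x⁻¹ = b * a := by
    rw [← conj_mul]
    rcases s.1 with k | k
    · have : x * b * x⁻¹ = a := by rw [← k, xi]; simp only [mul_assoc, xx, x2, mul_one]
      rw [k, this]
    · have : x * b * x⁻¹ = z * a := by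
        have k2 : b = z * (x * a * x⁻¹) := by rw [k, D.l_zz]
        rw [k2, ← mul_assoc x z, xz, xi]; simp only [mul_assoc, xx, x2, mul_one]
      rw [k, this, mul_assoc, D.l_bz, D.l_zz]
  refine fin (mul_mem q.aA q.bA) x2 D.zz D.z1 xz ?_
  have e' : x * (b * a) * x⁻¹ = a * b := by rw [← e, xi]; simp only [mul_assoc, xx, x2, mul_one]
  calc a * b * x * (a * b)⁻¹ = a * b * (x * (b * a) * x⁻¹) * x := by rw [mul_inv_rev, D.ai, D.bi]; group
    _ = _ := by rw [e', D.cc]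

theorem Mo.jf (m : Mo J) : JF J := by
  obtain ⟨z, a, b, y, w, q⟩ := m.fr
  have i : ∀ {x}, In J x → x ∈ J := by
    rintro _ ⟨x, hx, k, hk, -, -, rfl⟩
    rwa [cen m hk, one_mul]
  exact ⟨m.nJ, ⟨z, q.zA, q.zz, q.z1⟩, m.sq4,
    fun x u x2 u2 c => (q.out (nrm m x) (nrm m u) x2 u2 c).imp i (Or.imp i i), m.cls⟩

end H16D
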