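import Mathlib
import Cfsg.Agent.Lib.HD8.MB
import Cfsg.Agent.Lib.A6C.Cv

/-! Lifting the frame to a cover. -/

set_option autoImplicit false

namespace H16D

open Subgroup H69 H36.SW H80.A6C

variable {X : Type} [Group X] [Finite X] {G : Type*} [Group G] [Finite G]
variable {J : Subgroup X} {A E : Subgroup G} {α : G → X} {t : G}

namespace MLH

omit [Finite X] in
theorem lifty (c : Cov J A α) {b : G} (hb : b ∈ A) (bb : b * b = 1) {y : X} (hy : y ∈ J) (y3 : y ^ 3 = 1)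
    (e : α b * y * α b = y⁻¹) : ∃ y' ∈ A, α y' = y ∧ y' ^ 3 = 1 ∧ b * y' * b = y'⁻¹ := by
  have b2 := c.sq (le_normalizer hb) bb
  obtain ⟨u, hu, eu, uu⟩ := c.lifti (mul_mem hy (c.mem b hb))
    (by rw [mul_assoc, ← mul_assoc (α b), e, mul_inv_cancel])
  have e1 : α u * α b = y := by rw [eu, mul_assoc, b2, mul_one]
  refine ⟨u * b, mul_mem hu hb, by rw [c.mul' hu hb, e1], lift_ord c hu hb uu bb (by rw [e1, y3]), ?_⟩
  rw [mul_inv_rev, inv_eq_of_mul_eq_one_right bb, inv_eq_of_mul_eq_one_right uu, mul_assoc, mul_assoc, bb,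
    mul_one]

omit [Finite X] [Finite G] in
theorem comm (c : Cov J A α) {b y x : G} (hb : b ∈ A) (bb : b * b = 1) (hy : y ∈ A) (e : b * y * b = y⁻¹)
    (hx : x ∈ 𝐍(A)) (xb : x * b = b * x) (xy : α x * α y = α y * α x) : x * y = y * x := by
  have h := c.comm_lift hx (mul_mem hy hb) (P2.of_sq (by rw [mul_assoc, ← mul_assoc b, e, mul_inv_cancel]))
    (by rw [c.mul' hy hb, ← mul_assoc, xy, mul_assoc, c.comm hx (le_normalizer hb) xb, mul_assoc])
  rw [mul_assoc, ← xb, ← mul_assoc, ← mul_assoc] at h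
  calc x * y = x * y * b * b := by rw [mul_assoc, bb, mul_one]
    _ = _ := by rw [h, mul_assoc, bb, mul_one]

end MLH

open MLH in
theorem Mo.lift (m : Mo J) (c : Cov J A α) : ∃ z a b y w, Gq A z a b y w := by
  obtain ⟨z0, a0, b0, y0, w0, q⟩ := m.fr
  obtain ⟨a, ha, rfl, aa⟩ := c.lifti q.aA q.aa
  obtain ⟨b, hb, rfl, bb⟩ := c.lifti q.bA q.bb
  obtain ⟨y, hy, rfl, y3, byb⟩ := lifty c hb bb q.yA q.y3 q.byb
  obtain ⟨w, hw, rfl, w3, awa⟩ := lifty c ha aa q.wA q.w3 q.awa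
  obtain ⟨z, hz⟩ : ∃ z, a * b * a * b = z := ⟨_, rfl⟩
  have zA : z ∈ A := hz ▸ mul_mem (mul_mem (mul_mem ha hb) ha) hb
  have ez : α z = z0 := by
    rw [← hz, c.mul' (mul_mem (mul_mem ha hb) ha) hb, c.mul' (mul_mem ha hb) ha, c.mul' ha hb, q.hz]
  subst ez
  have zz : z * z = 1 := by
    have := lift_ord c ha hb aa bb (n := 2 * 2) (by rw [pow_mul, pow_two, pow_two, q.toDh.cc, q.zz])
    rwa [pow_mul, pow_two, pow_two, ← mul_assoc (a * b) a, hz] at this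
  have d : Dh z a b := ⟨aa, bb, zz, fun e => q.z1 (by rw [e, c.one]), hz⟩
  have N : ∀ {x}, x ∈ A → x ∈ 𝐍(A) := fun h => le_normalizer h
  have nJ : ∀ x : X, x ∈ 𝐍(J) := fun x => by
    have := m.nJ
    rw [normalizer_eq_top]
    trivial
  have DA : DG a b ≤ A := DG_le ha hb
  refine ⟨z, a, b, y, w, d, ha, hb, hy, hw, ⟨DA, d.isP, fun R h1 h2 h3 => le_antisymm (fun r hr => ?_) h1⟩,
    fun x => c.odd', fun M hM hn h => c.le_of_normal m.sJ hM hn h q.z1, y3, w3,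
    c.conj_eq (N hy) zA ha (.of_sq zz) (.of_sq aa) q.yz, c.conj_eq (N hw) zA hb (.of_sq zz) (.of_sq bb) q.wz,
    c.conj_eq (N hy) ha (mul_mem zA ha) (.of_sq aa) (d.p2 (mul_mem d.zD aD)) (by rw [c.mul' zA ha, q.ya]),
    c.conj_eq (N hw) hb (mul_mem zA hb) (.of_sq bb) (d.p2 (mul_mem d.zD bD)) (by rw [c.mul' zA hb, q.wb]),
    byb, awa, fun x hx xa xb => ?_, fun x hx xx xa xb p hp r hr xp xr pz rz => ?_⟩
  · have e := q.syl.max (c.im R) (DG_le (c.mem_im.2 ⟨a, h1 aD, N ha, rfl⟩) (c.mem_im.2 ⟨b, h1 bD, N hb, rfl⟩))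
      (fun x hx => by
        obtain ⟨e, he, -, rfl⟩ := c.mem_im.1 hx
        exact c.mem e (h2 he)) (c.isP_im h3)
    obtain ⟨g, hg, eg⟩ := c.of_closure (D := DG a b) (DA.trans le_normalizer) (by
      rintro _ (rfl | rfl)
      exacts [⟨a, aD, rfl⟩, ⟨b, bD, rfl⟩]) (e ▸ c.mem_im.2 ⟨r, hr, N (h2 hr), rfl⟩ : α r ∈ DG (α a) (α b))
    rwa [← c.uniq (DA hg) (h2 hr) (d.p2 hg) (P2.of_mem h3 hr) eg]
  · obtain ⟨h1, h2⟩ := q.m1 (α x) (nJ _) (c.comm hx (N ha) xa) (c.comm hx (N hb) xb)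
    rw [← c.mul _ (N zA) _ hx] at h1 h2
    have zx := mul_mem (N zA) hx
    exact ⟨h1.imp (comm c hb bb hy byb hx xb) (comm c hb bb hy byb zx (Commute.mul_left d.zb xb)),
      h2.imp (comm c ha aa hw awa hx xa) (comm c ha aa hw awa zx (Commute.mul_left d.za xa))⟩
  · have h := q.m2 (α x) (nJ _) (by rw [← c.mul _ hx _ hx, c.cen xx]; exact one_mem _)
      (c.comm hx (N ha) xa) (c.comm hx (N hb) xb) _ (c.mem p hp) _ (c.mem r hr) (c.comm hx (N hp) xp)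
      (c.comm hx (N hr) xr) (by rw [← c.conj (N hp) (N zA), pz]) (by rw [← c.conj (N hr) (N zA), rz])
    exact (c.ker x hx).1 (m.cJ _ fun j hj => (h j hj).symm)

end H16D
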