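import Mathlib
import Cfsg.Agent.Lib.HD8.MB
import Cfsg.Prelude.Def_KGroupFacts
import Cfsg.Agent.Lib.M37.Tr

/-! The model of a simple group. -/

set_option autoImplicit false

namespace H16D

open Subgroup H69 H36.SW H80.A6C

variable {Y : Type} [Group Y] [Finite Y]

theorem mo_of_md (hs : IsSimpleGroup Y) {z v1 v2 y1 y2 : Y} (m : H60M.MC.Md z v1 v2 y1 y2) :
    Mo (Cfsg.Inn Y) ∧ Nonempty (Y ≃* Cfsg.Inn Y) := by
  have d : Dh z v1 v2 := ⟨m.v11, m.v22, m.zz, m.z1, m.hz⟩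
  have zc : center Y = ⊥ := (hs.eq_bot_or_eq_top_of_normal _ inferInstance).resolve_right fun h =>
    d.nab (mem_center_iff.1 (h.ge (mem_top v2)) v1)
  have inj : Function.Injective (MulAut.conj : Y →* MulAut Y) := (injective_iff_map_eq_one _).2 fun y h => by
    rw [← mem_bot, ← zc, mem_center_iff]
    intro g
    have : y * g * y⁻¹ = g := DFunLike.congr_fun h g
    exact (mul_inv_eq_iff_eq_mul.1 this).symm
  let e : Y ≃* Cfsg.Inn Y := MonoidHom.ofInjective inj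
  have he : ∀ y, (e y : MulAut Y) = MulAut.conj y := fun _ => rfl
  have cc : ∀ (x : MulAut Y) (y : Y), x * MulAut.conj y * x⁻¹ = MulAut.conj (x y) := fun x y => by
    ext g
    simp
  have nJ : (Cfsg.Inn Y).Normal := ⟨by
    rintro _ ⟨y, rfl⟩ x
    exact ⟨x y, (cc x y).symm⟩⟩
  have sJ : IsSimpleGroup (Cfsg.Inn Y) := e.symm.isSimpleGroup
  have cJ : ∀ g : MulAut Y, (∀ j ∈ Cfsg.Inn Y, g * j = j * g) → g = 1 := fun g h => by
    ext y
    exact inj (by rw [← cc, h _ ⟨y, rfl⟩, mul_inv_cancel_right]; rfl)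
  haveI : Finite (MulAut Y) := Finite.of_injective (fun a : MulAut Y => (a : Y → Y)) DFunLike.coe_injective
  have q := m.mq nJ e
  refine ⟨⟨nJ, sJ, cJ, fun φ => ⟨(e.trans φ).trans e.symm, fun j => ?_⟩, e z, e v1, e v2, e y1, e y2,
    ⟨q.v11, q.v22, q.zz, q.z1, q.hz⟩, q.v1L, q.v2L, q.y1L, q.y2L, q.syl, fun x _ hx => ?_, fun M h1 h2 h3 => ?_,
    q.y13, q.y23, q.y1z, q.y2z, q.y1v, q.y2v, q.v2y, q.v1y, fun x _ => q.m1 x, fun x _ => q.m2 x⟩, ⟨e⟩⟩
  · obtain ⟨y, rfl⟩ := e.surjective j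
    rw [he, cc, ← he]
    simp
  · rw [cJ x fun j hj => (mem_centralizer_iff.1 hx j hj).symm, orderOf_one]
    exact odd_one
  · rcases sJ.eq_bot_or_eq_top_of_normal (M.subgroupOf (Cfsg.Inn Y))
      ((normal_subgroupOf_iff_le_normalizer h1).2 h2) with h | h
    · have : e z ∈ M.subgroupOf (Cfsg.Inn Y) := h3
      rw [h, mem_bot] at this
      exact absurd (congrArg Subtype.val this) q.z1
    · exact subgroupOf_eq_top.1 h

end H16D
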