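import Mathlib
import Cfsg.Agent.Lib.HD8.MB

/-! Rank two: the common Sylow subgroup. -/

set_option autoImplicit false

namespace H16D

open Subgroup H69 H36.SW H80.A6C

variable {G : Type*} [Group G] [Finite G] {A B S T E : Subgroup G} {z a b y w t a' b' y' w' : G}

theorem Gq.lemL (q : Gq A z a b y w) (tB : Ti B) (zB : z ∈ 𝐂(B)) {d c : G} (hd : d = 1 ∨ d = z ∨ d = a ∨ d = z * a)
    (cN : c ∈ 𝐍(A)) (ca : c * a = a * c) (cb : c * b = b * c) (hp : d * c ∈ 𝐂(B)) (p2 : d * c * (d * c) = 1)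
    (p1 : d * c ≠ 1) (pz : d * c ≠ z) : a ∈ 𝐂(B) := by
  have h := q.toDh
  have zc : z * c = c * z := (cD ca cb h.zD).symm
  have zd : z * d = d * z := by
    rcases hd with e | e | e | e <;> rw [e]
    · rw [mul_one, one_mul]
    · exact h.za
    · rw [mul_assoc, h.za]
  have zp : z * (d * c) = d * c * z := by rw [← mul_assoc, zd, mul_assoc, zc, mul_assoc]
  have s2 : z * (d * c) * (z * (d * c)) = 1 := by
    rw [mul_assoc, ← mul_assoc (d * c), ← zp, mul_assoc, h.l_zz, p2]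
  have s1 : z * (d * c) ≠ 1 := fun e => pz (by rw [← h.l_zz (d * c), e, mul_one])
  have sB : z * (d * c) ∈ 𝐂(B) := mul_mem zB hp
  have key : ∀ s c', s ∈ 𝐂(B) → s * s = 1 → s ≠ 1 → c' * y = y * c' → (s = c' ∨ s = a * c') → y ∈ 𝐍(B) := by
    intro s c' hs e2 e1 cy e
    have k : y * c' * y⁻¹ = c' := by rw [← cy, mul_inv_cancel_right]
    refine tB y s e2 e1 hs ?_
    rcases e with e | e
    · rw [e, k, ← e]; exact hs
    · rw [e, ← conj_mul, k, q.ya, mul_assoc, ← e]; exact mul_mem zB hs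
  have yB : y ∈ 𝐍(B) := by
    rcases (q.m1 c cN ca cb).1 with cy | cy <;> rcases hd with e | e | e | e
    · exact key _ _ hp p2 p1 cy (Or.inl (by rw [e, one_mul]))
    · exact key _ _ sB s2 s1 cy (Or.inl (by rw [e, h.l_zz]))
    · exact key _ _ hp p2 p1 cy (Or.inr (by rw [e]))
    · exact key _ _ sB s2 s1 cy (Or.inr (by rw [e, mul_assoc, h.l_zz]))
    · exact key _ _ sB s2 s1 cy (Or.inl (by rw [e, one_mul]))
    · exact key _ _ hp p2 p1 cy (Or.inl (by rw [e]))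
    · exact key _ _ sB s2 s1 cy (Or.inr (by rw [e, h.l_az]))
    · exact key _ _ hp p2 p1 cy (Or.inr (by rw [e, h.l_az, mul_assoc]))
  rw [← q.yz]
  exact conj_mem_of_mem_normalizer (normalizer_le_normalizer_centralizer B yB) zB

theorem exists_pq (qA : Gq A z a b y w) {g : G} (hB : A ^ᶜ g = B) (tA : Ti A)
    (dis : ∀ k ∈ 𝐂(A), k ∈ 𝐂(B) → k * k = 1 → k = 1) (fA : Four 𝐂(A)) (nc : ¬ A ≤ 𝐂(B)) {x u : G} (hx : x ∈ A)
    (xB : x ∈ 𝐂(B)) (x2 : x * x = 1) (x1 : x ≠ 1) (hu : u ∈ B) (uA : u ∈ 𝐂(A)) (u2 : u * u = 1) (u1 : u ≠ 1) :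
    ∃ S z1 a1 b1 y1 w1 t1 a2 b2 y2 w2, Pq A B S z1 a1 b1 y1 w1 t1 a2 b2 y2 w2 := by
  have uN : u ∈ 𝐍(A) := centralizer_le_normalizer _ uA
  have pu := (P2.of_sq u2).zpowers
  obtain ⟨a1, b1, y1, w1, q1, hn⟩ := qA.adapt pu (zpowers_le.2 uN) hx x2 x1
    (zpowers_le.2 (mem_centralizer_singleton_iff.2 (uA x hx).symm))
  obtain ⟨S, sA, le⟩ := exists_isSylowIn_le (isPGroup_sup_of_le_normalizer_left q1.toDh.isP pu hn)
    (sup_le (q1.DA.trans le_normalizer) (zpowers_le.2 uN))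
  have dA : DG a1 b1 ≤ S := le_sup_left.trans le
  have uS : u ∈ S := le (mem_sup_right (mem_zpowers u))
  have tB : Ti B := hB ▸ tA.cjg g
  have SB : S ≤ 𝐍(B) := fun s hs => tB.CN x2 x1 xB (q1.toDh.Nz (q1.nD sA.isP dA sA.le hs))
  have sB : IsSylowIn 2 S 𝐍(B) := by
    have := sA.cj g
    rw [cj_normalizer, hB] at this
    exact this.of_card_le sA.isP SB (card_cj S g).le
  have qB := qA.cjg g
  rw [hB] at qB
  obtain ⟨t1, a2, b2, y2, w2, q2, hn2⟩ := qB.adapt0 sA.isP SB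
  have dB : DG a2 b2 ≤ S := sB.le_of_le_normalizer q2.toDh.isP (q2.DA.trans le_normalizer) hn2
  have uD : u ∈ DG a2 b2 := q2.inf sA.isP dB ▸ (⟨uS, hu⟩ : u ∈ S ⊓ B)
  have tA' : t1 ∈ 𝐂(A) :=
    q2.toDh.norm_z (dB.trans (sA.le.trans (normalizer_le_normalizer_centralizer A))) uD uA u1
  exact ⟨S, x, a1, b1, y1, w1, t1, a2, b2, y2, w2, q1, q2, tA, tB, dis, xB, tA', sA, sB, dA, dB, fA,
    hB ▸ fA.cjg g, nc⟩

end H16D
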