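import Mathlib
import Cfsg.Agent.Lib.HD8.MO

/-! Rank two: involutions of `A` that centralise `B`. -/

set_option autoImplicit false

namespace H16D

open Subgroup H69 H36.SW H80.A6C

variable {G : Type*} [Group G] [Finite G] {A B S T E : Subgroup G} {z a b y w t a' b' y' w' : G}

namespace RZH

omit [Finite G] in
theorem sq2 {k x : G} (k2 : k * k = 1) (x2 : x * x = 1) (c : x * k = k * x) : k * x * (k * x) = 1 := by
  rw [mul_assoc, ← mul_assoc x, c, mul_assoc k x, x2, mul_one, k2]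

/-- the core of `lemZ`, with an adapted frame -/
theorem core (q : Gq A z a b y w) (tB : Ti B) (dis : ∀ k ∈ 𝐂(A), k ∈ 𝐂(B) → k * k = 1 → k = 1) {k p : G}
    (hk : k ∈ 𝐂(A)) (k2 : k * k = 1) (hs : k * z ∈ 𝐂(B)) (s1 : k * z ≠ 1)
    (hp : p ∈ 𝐂(B)) (pN : p ∈ 𝐍(A)) (p2 : p * p = 1) (p1 : p ≠ 1) (ps : p ≠ k * z)
    (c : p * (k * z) = k * z * p) (pD : p ∈ 𝐍(DG a b)) : k = 1 := by
  have h := q.toDh
  have kA : ∀ {d : G}, d ∈ A → d * k = k * d := fun hd => mem_centralizer_iff.1 hk _ hd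
  have s2 : k * z * (k * z) = 1 := sq2 k2 h.zz (kA q.zA)
  have DN : DG a b ≤ 𝐍(𝐂(B)) := fun d hd => H69.normalizer_le_normalizer_centralizer B
    (tB.CN s2 s1 hs (by rw [← mul_assoc, kA (q.DA hd), mul_assoc, ← h.zc hd, mul_assoc]))
  by_contra k1
  have st : ∀ d ∈ DG a b, d ∈ 𝐂(B) → d = 1 := fun d hd dB => by_contra fun d1 => by
    have zB := h.norm_z DN hd dB d1
    have := mul_mem hs zB
    rw [mul_assoc, h.zz, mul_one] at this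
    exact k1 (dis k hk this k2)
  have cp : ∀ d ∈ DG a b, p * d = d * p := fun d hd => by
    have e := st (p * d * p⁻¹ * d⁻¹) (mul_mem (conj_mem_of_mem_normalizer pD hd) (inv_mem hd)) (by
      rw [show p * d * p⁻¹ * d⁻¹ = p * (d * p⁻¹ * d⁻¹) by group]
      exact mul_mem hp (conj_mem_of_mem_normalizer (DN hd) (inv_mem hp)))
    rwa [mul_inv_eq_one, mul_inv_eq_iff_eq_mul] at e
  have yN : y ∈ 𝐍(B) := by
    rcases (q.m1 p pN (cp a aD) (cp b bD)).1 with e | e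
    · exact tB.CN p2 p1 hp e.symm
    · refine tB.CN (k := k * z * p) (sq2 s2 p2 c) (fun f => ps ?_) (mul_mem hs hp) ?_
      · rw [← inv_eq_of_mul_eq_one_right f, inv_eq_of_mul_eq_one_right s2]
      · rw [mul_assoc k, ← mul_assoc y, kA q.yA, mul_assoc, ← e, ← mul_assoc]
  have m := conj_mem_of_mem_normalizer (H69.normalizer_le_normalizer_centralizer B yN) hs
  rw [← conj_mul, q.yz, kA q.yA, mul_inv_cancel_right] at m
  have m' := mul_mem hs m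
  rw [mul_assoc, ← mul_assoc z, kA q.zA, ← mul_assoc, ← mul_assoc, k2, one_mul] at m'
  exact h.za1 (st _ (mul_mem h.zD aD) m')

end RZH

theorem Gq.lemZ (q : Gq A z a b y w) (tB : Ti B) (dis : ∀ k ∈ 𝐂(A), k ∈ 𝐂(B) → k * k = 1 → k = 1) {k x p : G}
    (hx : x ∈ A) (x2 : x * x = 1) (hk : k ∈ 𝐂(A)) (k2 : k * k = 1) (hs : k * x ∈ 𝐂(B)) (s1 : k * x ≠ 1)
    (hp : p ∈ 𝐂(B)) (pN : p ∈ 𝐍(A)) (p2 : p * p = 1) (p1 : p ≠ 1) (ps : p ≠ k * x)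
    (c : p * (k * x) = k * x * p) : k = 1 := by
  by_cases x1 : x = 1
  · rw [x1, mul_one] at hs
    exact dis k hk hs k2
  have xp := conj_mem_of_mem_normalizer pN hx
  have kp := conj_mem_of_mem_normalizer (H69.normalizer_le_normalizer_centralizer A pN) hk
  have e : x⁻¹ * (p * x * p⁻¹) = (p * k * p⁻¹)⁻¹ * k := by
    have e1 : p * k * p⁻¹ * (p * x * p⁻¹) = k * x := by rw [conj_mul, c, mul_inv_cancel_right]
    have e2 := mem_centralizer_iff.1 (mul_mem (inv_mem kp) hk) _ hx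
    rw [inv_mul_eq_iff_eq_mul, e2, mul_assoc _ k x, ← e1, inv_mul_cancel_left]
  have mK : x⁻¹ * (p * x * p⁻¹) ∈ 𝐂(A) := e ▸ mul_mem (inv_mem kp) hk
  have o := q.one (mul_mem (inv_mem hx) xp) mK (P2.of_sq (by
    have c1 := mem_centralizer_iff.1 mK _ hx
    rw [mul_inv_cancel_left, inv_eq_of_mul_eq_one_right x2] at c1
    rw [inv_eq_of_mul_eq_one_right x2, ← mul_assoc, ← c1, cjsq x2]))
  have px : p * x = x * p := by rwa [inv_mul_eq_one, eq_mul_inv_iff_mul_eq, eq_comm] at o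
  obtain ⟨a1, b1, y1, w1, q1, n⟩ := q.adapt (S := zpowers p) (P2.of_sq p2).zpowers (zpowers_le.2 pN) hx x2 x1
    (zpowers_le.2 (mem_centralizer_singleton_iff.2 px))
  exact RZH.core q1 tB dis hk k2 hs s1 hp pN p2 p1 ps c (n (mem_zpowers p))

namespace RZH

theorem half (qB : Gq B t a' b' y' w') (tA : Ti A) (tB : Ti B)
    (dis : ∀ k ∈ 𝐂(B), k ∈ 𝐂(A) → k * k = 1 → k = 1) (fA : Four 𝐂(A)) {s : G} (s1 : s ≠ 1)
    (sB : s ∈ 𝐂(B)) (i : In A s) : ∃ u ∈ B, u ∈ 𝐂(A) ∧ u * u = 1 ∧ u ≠ 1 := by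
  obtain ⟨x, hx, k, hk, x2, k2, rfl⟩ := i
  have s2 : k * x * (k * x) = 1 := sq2 k2 x2 (mem_centralizer_iff.1 hk _ hx)
  obtain ⟨p, hp, r, hr, p2, r2, c, p1, r1, pr⟩ := fA.cen hk k2
  have N : ∀ {v : G}, v ∈ 𝐂(A) ⊓ centralizer {k} → v ∈ 𝐍(B) := fun {v} hv => tB.CN s2 s1 sB (by
    rw [← mul_assoc, mem_centralizer_singleton_iff.1 hv.2, mul_assoc, ← mem_centralizer_iff.1 hv.1 _ hx, mul_assoc])
  have fin : ∀ {u v : G}, u ∈ 𝐂(A) → u ≠ 1 → v ∈ 𝐂(A) ⊓ centralizer {k} → v * v = 1 → v ≠ 1 → v ≠ u →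
      v * u = u * v → In B u → ∃ u ∈ B, u ∈ 𝐂(A) ∧ u * u = 1 ∧ u ≠ 1 := by
    rintro _ v hu u1 hv v2 v1 vu cc ⟨x', hx', k', hk', x2', k2', rfl⟩
    have := qB.lemZ tA dis hx' x2' hk' k2' hu u1 hv.1 (N hv) v2 v1 vu cc
    rw [this, one_mul] at hu u1
    exact ⟨x', hx', hu, x2', u1⟩
  rcases qB.out (N hp) (N hr) p2 r2 c with i | i | i
  · exact fin hp.1 p1 hr r2 r1 pr.symm c.symm i
  · exact fin hr.1 r1 hp p2 p1 pr c i
  · refine fin (mul_mem hp.1 hr.1) (fun e => pr ?_) hp p2 p1 (fun e => r1 (left_eq_mul.1 e))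
      (by rw [mul_assoc, ← c]) i
    rw [← inv_eq_of_mul_eq_one_right e, inv_eq_of_mul_eq_one_right p2]

end RZH

theorem pairZ (qA : Gq A z a b y w) (qB : Gq B t a' b' y' w') (tA : Ti A) (tB : Ti B)
    (dis : ∀ k ∈ 𝐂(A), k ∈ 𝐂(B) → k * k = 1 → k = 1) (fA : Four 𝐂(A)) (fB : Four 𝐂(B)) {s : G} (s1 : s ≠ 1)
    (sB : s ∈ 𝐂(B)) (i : In A s) :
    (∃ x ∈ A, x ∈ 𝐂(B) ∧ x * x = 1 ∧ x ≠ 1) ∧ ∃ u ∈ B, u ∈ 𝐂(A) ∧ u * u = 1 ∧ u ≠ 1 := by
  obtain ⟨u, uB, uA, u2, u1⟩ := RZH.half qB tA tB (fun k h1 h2 => dis k h2 h1) fA s1 sB i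
  exact ⟨RZH.half qA tB tA dis fB u1 uA ⟨u, uB, 1, one_mem _, u2, one_mul 1, (one_mul u).symm⟩, u, uB, uA, u2, u1⟩

end H16D
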