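import Mathlib
import Cfsg.Agent.Lib.HD8.Defs

/-! Unitary matrices of order 5. -/

set_option autoImplicit false

namespace H16D

open Matrix

variable {K : Type} [Field K] [Fintype K]

namespace U5aH

open Polynomial Module

omit [Fintype K] in
theorem add_dim {V : Type*} [AddCommGroup V] [Module K V] [FiniteDimensional K V] (T : V →ₗ[K] V) {p q : K[X]}
    (h : IsCoprime p q) : finrank K (LinearMap.ker (aeval T (p * q))) =
      finrank K (LinearMap.ker (aeval T p)) + finrank K (LinearMap.ker (aeval T q)) := by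
  rw [← sup_ker_aeval_eq_ker_aeval_mul_of_coprime T h, ← Submodule.finrank_sup_add_finrank_inf_eq,
    (disjoint_ker_aeval_of_isCoprime T h).eq_bot, finrank_bot, add_zero]

omit [Fintype K] in
theorem two_le {V : Type*} [AddCommGroup V] [Module K V] [FiniteDimensional K V] (T : V →ₗ[K] V) {p : K[X]}
    (h : ∀ d, p.eval d ≠ 0) (h0 : LinearMap.ker (aeval T p) ≠ ⊥) : 2 ≤ finrank K (LinearMap.ker (aeval T p)) := by
  by_contra n
  obtain ⟨v, hv⟩ := finrank_le_one_iff.1 (Nat.lt_succ_iff.1 (not_le.1 n))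
  have m : T v ∈ LinearMap.ker (aeval T p) := by
    have := congrArg (fun f : V →ₗ[K] V => f v) (map_mul (aeval T) p X ▸ map_mul (aeval T) X p ▸
      congrArg (aeval T) (mul_comm p X))
    simpa [LinearMap.mem_ker.1 v.2] using this
  obtain ⟨d, hd⟩ := hv ⟨_, m⟩
  have e := End.aeval_apply_of_mem_apply_eq_smul (p := p) (congrArg Subtype.val hd).symm
  rw [LinearMap.mem_ker.1 v.2, eq_comm, smul_eq_zero] at e
  refine h0 (eq_bot_iff.2 fun w hw => ?_)
  obtain ⟨c, hc⟩ := hv ⟨w, hw⟩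
  rw [← show c • (v : V) = w from congrArg Subtype.val hc, e.resolve_left (h d), smul_zero]
  exact Submodule.zero_mem _

end U5aH

open U5aH Polynomial Module in
theorem u5_fix (hK : Fintype.card K = 4) {x e : Matrix (Fin 5) (Fin 5) K} (hu : x * (x.map (· ^ 2))ᵀ = 1)
    (h5 : x ^ 5 = 1) (xe : x * e = e) (r : 2 ≤ e.rank) : x = 1 := by
  classical
  have h2 : (2 : K) = 0 := by
    have := FiniteField.cast_card_eq_zero K
    rw [hK] at this
    exact mul_self_eq_zero.1 (by rw [← this]; norm_num)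
  have : CharP K 2 := (CharP.charP_iff_prime_eq_zero Nat.prime_two).2 h2
  have h4 : ∀ d : K, d ^ 4 = d := fun d => hK ▸ FiniteField.pow_card d
  obtain ⟨ω, hω⟩ : ∃ ω : K, ω ^ 2 + ω + 1 = 0 := by
    obtain ⟨ω, -, h⟩ := Finset.exists_mem_notMem_of_card_lt_card (s := {0, 1}) (t := (Finset.univ : Finset K))
      (Finset.card_le_two.trans_lt (by simp [hK]))
    simp only [Finset.mem_insert, Finset.mem_singleton, not_or] at h
    exact ⟨ω, mul_left_cancel₀ (mul_ne_zero h.1 (sub_ne_zero.2 h.2)) (by linear_combination h4 ω)⟩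
  have hy : ((frobenius K 2).mapMatrix x)ᵀ = x ^ 4 := by
    rw [← mul_one (x ^ 4), ← hu, ← mul_assoc, ← pow_succ, h5, one_mul]; rfl
  have hs : ∀ c : K, x ^ 3 + c • x ^ 2 + c • x + 1 = 0 → x ^ 3 + c ^ 2 • x ^ 2 + c ^ 2 • x + 1 = 0 := fun c h => by
    have sm : ∀ A : Matrix (Fin 5) (Fin 5) K, (frobenius K 2).mapMatrix (c • A) = c ^ 2 • (frobenius K 2).mapMatrix A :=
      fun A => Matrix.ext fun i j => mul_pow _ _ _
    have := congrArg (fun A => x ^ 3 * ((frobenius K 2).mapMatrix A)ᵀ) h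
    simp only [map_add, map_pow, map_one, map_zero, sm, transpose_add, transpose_pow, transpose_smul, transpose_one,
      transpose_zero, hy, mul_add, mul_smul_comm, ← pow_mul, ← pow_add, mul_zero, mul_one] at this
    rw [pow_eq_pow_mod (3 + 4 * 3) h5, pow_eq_pow_mod (3 + 4 * 2) h5, pow_eq_pow_mod (3 + 4) h5] at this
    rw [← this]
    norm_num
    abel
  have h2' : (2 : K[X]) = 0 := (map_ofNat C 2).symm.trans (by rw [h2, map_zero])
  have key : ∀ c : K, c ^ 2 + c + 1 = 0 → x ^ 3 + c • x ^ 2 + c • x + 1 ≠ 0 →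
      2 ≤ finrank K (LinearMap.ker (aeval (toLinAlgEquiv' x) (X ^ 2 + C c * X + 1))) := fun c hc h => by
    have hC : (C c : K[X]) ^ 2 + C c + 1 = 0 := by simpa using congrArg C hc
    refine two_le _ (fun d hd => ?_) fun h0 => h ?_
    · simp only [eval_add, eval_pow, eval_mul, eval_X, eval_C, eval_one] at hd
      have e1 : d ^ 2 = 1 := by
        linear_combination (d ^ 3 + c * d ^ 2 + c * d + 1) * hd - (d ^ 3 + d ^ 2) * hc - (c * d ^ 4 + c * d + 1) * h2 -
          d * h4 d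
      have e2 : c * d = 0 := by linear_combination hd - e1 - h2
      exact one_ne_zero (α := K) (by linear_combination hc - (c + 1) * d * e2 + (c ^ 2 + c) * e1)
    · have e : aeval x (X ^ 2 + C c * X + 1) * aeval x (X ^ 3 + C c * X ^ 2 + C c * X + 1) = 0 := by
        rw [← map_mul, show (X ^ 2 + C c * X + 1) * (X ^ 3 + C c * X ^ 2 + C c * X + 1) = (X ^ 5 - 1 : K[X]) by
          linear_combination (X ^ 3 + X ^ 2) * hC + (C c * X ^ 4 + C c * X + 1) * h2']
        simp [h5]
      rw [aeval_algHom_apply (toLinAlgEquiv' (R := K) (n := Fin 5))] at h0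
      have u : IsUnit (aeval x (X ^ 2 + C c * X + 1)) :=
        Matrix.mulVec_injective_iff_isUnit.1 (LinearMap.ker_eq_bot.1 h0)
      simpa [Algebra.smul_def] using u.mul_right_eq_zero.1 e
  have hω' : (ω ^ 2) ^ 2 + ω ^ 2 + 1 = 0 := by linear_combination hω + h4 ω
  by_cases h : x ^ 3 + ω • x ^ 2 + ω • x + 1 = 0
  · have h' := hs ω h
    have e : (ω - ω ^ 2) • (x ^ 2 + x) = 0 := by
      rw [← sub_eq_zero.2 (h.trans h'.symm)]
      module
    rw [show ω - ω ^ 2 = 1 by linear_combination ω * h2 - hω, one_smul] at e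
    have e3 : x = -1 := by
      have := congrArg (x ^ 4 * ·) e
      simp only [mul_add, ← pow_add, ← pow_succ, mul_zero] at this
      rw [pow_eq_pow_mod (4 + 2) h5, h5] at this
      simpa using eq_neg_of_add_eq_zero_left this
    calc x = (-1) ^ 5 := by rw [e3]; norm_num
      _ = 1 := by rw [← e3, h5]
  have h' : x ^ 3 + ω ^ 2 • x ^ 2 + ω ^ 2 • x + 1 ≠ 0 := fun k => h (by
    have := hs _ k
    rwa [← pow_mul, h4] at this)
  have hC : (C ω : K[X]) ^ 2 + C ω + 1 = 0 := by simpa using congrArg C hω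
  have k0 : 2 ≤ finrank K (LinearMap.ker (aeval (toLinAlgEquiv' x) (X - 1 : K[X]))) := by
    refine r.trans (Submodule.finrank_mono ?_)
    rintro _ ⟨v, rfl⟩
    simp [xe]
  have c1 : IsCoprime (X ^ 2 + C ω * X + 1 : K[X]) (X ^ 2 + C (ω ^ 2) * X + 1) :=
    ⟨1 - (X + C ω), X + C ω, by
      rw [map_pow]
      linear_combination (X ^ 2 + C ω * X) * hC - (C ω * X ^ 2 + C ω ^ 2 * X) * h2'⟩
  have c2 : IsCoprime (X - 1 : K[X]) ((X ^ 2 + C ω * X + 1) * (X ^ 2 + C (ω ^ 2) * X + 1)) :=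
    ⟨X ^ 3 + X, 1, by
      rw [map_pow]
      linear_combination (X ^ 3 + (C ω - 1) * X ^ 2 + X) * hC + (X ^ 4 - X ^ 3 + 2 * X ^ 2 - X) * h2'⟩
  have := Submodule.finrank_le (LinearMap.ker (aeval (toLinAlgEquiv' x)
    ((X - 1) * ((X ^ 2 + C ω * X + 1) * (X ^ 2 + C (ω ^ 2) * X + 1)) : K[X])))
  rw [add_dim _ c2, add_dim _ c1, finrank_fin_fun] at this
  have k1 := key ω hω h
  have k2 := key _ hω' h'
  omega

end H16D
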