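import Mathlib
import Cfsg.Agent.Lib.HD8.U5a

/-! Central elements of order 3 in perfect unitary groups. -/

set_option autoImplicit false

namespace H16D

open Matrix

variable {K : Type} [Field K] [Fintype K]

namespace U5bH

omit [Fintype K] in
theorem det_proj {V : Type*} [AddCommGroup V] [Module K V] [FiniteDimensional K V] {f : V →ₗ[K] V}
    (hf : IsIdempotentElem f) (c : K) :
    LinearMap.det (c • f + (1 - f)) = c ^ Module.finrank K (LinearMap.range f) := by
  have h := LinearMap.IsIdempotentElem.isProj_range f hf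
  have e := h.eq_conj_prodMap
  generalize (LinearMap.range f).prodEquivOfIsCompl (LinearMap.ker f) h.isCompl = ε at e
  have e2 : c • f + (1 - f) = ε.conj (LinearMap.prodMap (c • LinearMap.id) LinearMap.id) := by
    have e3 : (LinearMap.prodMap (c • LinearMap.id) LinearMap.id :
        (LinearMap.range f × LinearMap.ker f) →ₗ[K] (LinearMap.range f × LinearMap.ker f)) =
        c • LinearMap.prodMap LinearMap.id 0 + (LinearMap.id - LinearMap.prodMap LinearMap.id 0) :=
      LinearMap.ext fun x => by ext <;> simp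
    rw [e3, map_add, map_sub, map_smul, ← e, LinearEquiv.conj_id]; rfl
  rw [e2, LinearEquiv.conj_apply, LinearMap.comp_assoc, LinearMap.det_conj, LinearMap.det_prodMap]
  simp

omit [Fintype K] in
theorem det_idem {e : Matrix (Fin 5) (Fin 5) K} (he : e * e = e) (c : K) :
    (c • e + (1 - e)).det = c ^ e.rank := by
  have := det_proj (f := toLin' e) (by rw [IsIdempotentElem, Module.End.mul_eq_comp, ← toLin'_mul, he]) c
  rw [← LinearMap.det_toLin', map_add, map_sub, map_smul, toLin'_one]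
  exact this

omit [Fintype K] in
theorem rank_compl (e : Matrix (Fin 5) (Fin 5) K) : 5 ≤ e.rank + (1 - e).rank := by
  have h : (⊤ : Submodule K (Fin 5 → K)) ≤ LinearMap.range e.mulVecLin ⊔ LinearMap.range (1 - e).mulVecLin :=
    fun v _ => Submodule.mem_sup.2 ⟨_, ⟨v, rfl⟩, _, ⟨v, rfl⟩, by simp [sub_mulVec]⟩
  have := (Submodule.finrank_mono h).trans (Submodule.finrank_add_le_finrank_add_finrank _ _)
  rw [finrank_top, Module.finrank_fin_fun] at this
  exact this

omit [Fintype K] in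
theorem eq_zero_of_rank {e : Matrix (Fin 5) (Fin 5) K} (h : e.rank = 0) : e = 0 := by
  have : LinearMap.range e.mulVecLin = ⊥ := Submodule.finrank_eq_zero.1 h
  rw [LinearMap.range_eq_bot] at this
  exact toLin'.injective (this.trans (map_zero _).symm)

theorem kill (hK : Fintype.card K = 4) {H : Type*} [Group H] (ρ : H →* Matrix (Fin 5) (Fin 5) K)
    (hu : ∀ h, ρ h * ((ρ h).map (· ^ 2))ᵀ = 1) (hp : commutator H = ⊤) {k x : H}
    (x5 : x ^ 5 = 1) (x1 : ρ x ≠ 1) [CharP K 2] {e : Matrix (Fin 5) (Fin 5) K} {c : K}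
    (hc : c ^ 2 + c + 1 = 0) (ee : e * e = e) (ce : ∀ h, e * ρ h = ρ h * e) (se : (e.map (· ^ 2))ᵀ = e)
    (ke : ρ k * e = c • e) : e = 0 := by
  let τ : H →* Matrix (Fin 5) (Fin 5) K :=
    { toFun := fun h => ρ h * e + (1 - e)
      map_one' := by simp
      map_mul' := fun a b => by
        simp only [map_mul, mul_add, add_mul, mul_sub, sub_mul, mul_one, one_mul, mul_assoc, ee]
        rw [← mul_assoc e, ce b, mul_assoc, ee]; abel }
  have hτ : ∀ h, τ h = ρ h * e + (1 - e) := fun _ => rfl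
  have hd : ∀ h, (τ h).det = 1 := fun h => by
    have := Abelianization.commutator_subset_ker (detMonoidHom.comp τ).toHomUnits (hp ▸ Subgroup.mem_top h)
    have h2 := congrArg Units.val (MonoidHom.mem_ker.1 this)
    rw [MonoidHom.coe_toHomUnits, Units.val_one, MonoidHom.comp_apply, coe_detMonoidHom] at h2
    exact h2
  have h3 : orderOf c = 3 := by
    refine orderOf_eq_prime (by grind) fun e => ?_
    rw [e] at hc; grind
  have hr := hd k
  rw [hτ, ke, det_idem ee, ← orderOf_dvd_iff_pow_eq_one, h3] at hr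
  have r5 := e.rank_le_width
  have rc := rank_compl e
  refine eq_zero_of_rank (by_contra fun r0 => x1 ?_)
  have hs : ∀ A : Matrix (Fin 5) (Fin 5) K, A.map (· ^ 2) = (frobenius K 2).mapMatrix A := fun _ => rfl
  have hx : ((ρ x).map (· ^ 2))ᵀ = ρ x⁻¹ := by
    rw [← one_mul (_ᵀ), ← map_one ρ, ← inv_mul_cancel x, map_mul, mul_assoc, hu, mul_one]
  have h1 : τ x = 1 := u5_fix hK (e := 1 - e) (by
      have : ((τ x).map (· ^ 2))ᵀ = τ x⁻¹ := by
        rw [hτ, hτ, hs, map_add, map_sub, map_mul, map_one, transpose_add, transpose_sub, transpose_mul,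
          transpose_one, ← hs, ← hs, se, hx, ce]
      rw [this, ← map_mul, mul_inv_cancel, map_one])
    (by rw [← map_pow, x5, map_one])
    (by simp only [hτ, add_mul, mul_sub, sub_mul, mul_one, one_mul, mul_assoc, ee]; abel) (by omega)
  refine u5_fix hK (e := e) (hu x) (by rw [← map_pow, x5, map_one]) ?_ (by omega)
  rw [hτ] at h1
  rw [← sub_eq_zero, ← sub_eq_zero.2 h1]; abel

end U5bH

theorem u5_mat (hK : Fintype.card K = 4) {H : Type*} [Group H] (ρ : H →* Matrix (Fin 5) (Fin 5) K)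
    (hu : ∀ h, ρ h * ((ρ h).map (· ^ 2))ᵀ = 1) (hp : commutator H = ⊤) {k x : H} (hc : ∀ h, h * k = k * h)
    (k3 : k ^ 3 = 1) (x5 : x ^ 5 = 1) (x1 : ρ x ≠ 1) : ρ k = 1 := by
  classical
  have h2 : (2 : K) = 0 := by
    have := Nat.cast_card_eq_zero K
    rw [hK] at this
    exact pow_eq_zero_iff (n := 2) (by decide) |>.1 (by rw [← this]; norm_num)
  haveI : CharP K 2 := (CharP.charP_iff_prime_eq_zero Nat.prime_two).2 h2
  obtain ⟨ω, h0, h1⟩ : ∃ ω : K, ω ≠ 0 ∧ ω ≠ 1 := by
    by_contra h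
    have : (Finset.univ : Finset K) ⊆ {0, 1} := fun a _ => by
      by_contra ha
      exact h ⟨a, by simpa using ha⟩
    have := (Finset.card_le_card this).trans Finset.card_le_two
    rw [Finset.card_univ, hK] at this; omega
  have hω : ω ^ 2 + ω + 1 = 0 := by
    have := FiniteField.pow_card_sub_one_eq_one ω h0
    rw [hK] at this
    exact mul_left_cancel₀ (sub_ne_zero.2 h1) (by linear_combination this)
  have hs : ∀ A : Matrix (Fin 5) (Fin 5) K, A.map (· ^ 2) = (frobenius K 2).mapMatrix A := fun _ => rfl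
  obtain ⟨Z, hZ⟩ : ∃ Z, Z = ρ k := ⟨_, rfl⟩
  obtain ⟨W, hW⟩ : ∃ W, W = ρ k⁻¹ := ⟨_, rfl⟩
  have kk : k * k = k⁻¹ := eq_inv_of_mul_eq_one_left (by rw [← k3, pow_succ, sq])
  have ZZ : Z * Z = W := by rw [hZ, hW, ← map_mul, kk]
  have ZW : Z * W = 1 := by rw [hZ, hW, ← map_mul, mul_inv_cancel, map_one]
  have WZ : W * Z = 1 := by rw [hZ, hW, ← map_mul, inv_mul_cancel, map_one]
  have WW : W * W = Z := by rw [← ZZ, mul_assoc, ZZ, ZW, mul_one]
  have st : ∀ h, ((ρ h).map (· ^ 2))ᵀ = ρ h⁻¹ := fun h => by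
    rw [← one_mul (_ᵀ), ← map_one ρ, ← inv_mul_cancel h, map_mul, mul_assoc, hu, mul_one]
  have key : ∀ c : K, c ^ 2 + c + 1 = 0 → 1 + c ^ 2 • Z + c • W = 0 := fun c hc' => by
    refine U5bH.kill hK ρ hu hp (k := k) x5 x1 hc' ?_ (fun h => ?_) ?_ ?_
    · simp only [mul_add, add_mul, mul_one, one_mul, smul_mul_assoc, mul_smul_comm, ZZ, ZW, WZ, WW]
      match_scalars <;> grind
    · have e1 : Z * ρ h = ρ h * Z := by rw [hZ, ← map_mul, ← map_mul, hc]
      have e2 : W * ρ h = ρ h * W := by rw [← ZZ, mul_assoc, e1, ← mul_assoc, e1, mul_assoc]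
      simp only [mul_add, add_mul, mul_one, one_mul, smul_mul_assoc, mul_smul_comm, e1, e2]
    · have e1 : ∀ (a : K) (A : Matrix (Fin 5) (Fin 5) K), (a • A).map (· ^ 2) = a ^ 2 • A.map (· ^ 2) :=
        fun a A => by ext i j; simp [mul_pow]
      rw [hs, map_add, map_add, map_one, ← hs, ← hs, e1, e1, transpose_add, transpose_add, transpose_one,
        transpose_smul, transpose_smul, hZ, hW, st, st, inv_inv]
      match_scalars <;> grind
    · rw [← hZ]
      simp only [mul_add, mul_one, mul_smul_comm, ZZ, ZW]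
      match_scalars <;> grind
  have e1 := key ω hω
  have e2 := key (ω ^ 2) (by grind)
  have e3 : Z = W := by
    have : Z - W = (1 + ω ^ 2 • Z + ω • W) + (1 + (ω ^ 2) ^ 2 • Z + ω ^ 2 • W) := by
      match_scalars <;> grind
    rw [e1, e2, add_zero, sub_eq_zero] at this
    exact this
  rw [← hZ, e3, ← ZZ]
  nth_rw 2 [e3]
  exact ZW

end H16D
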