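import Mathlib
import Cfsg.Agent.Lib.HD8.U5b
import Cfsg.Agent.Lib.Unitary.Order

/-! No triple cover in `U₅(2)`. -/

set_option autoImplicit false

namespace H16D

open Subgroup H69 H36.SW H80.A6C

variable {K : Type} [Field K] [Fintype K]
variable {G : Type*} [Group G] {A E : Subgroup G}

theorem u5_cen (hK : Fintype.card K = 4) (e : E ≃* Cfsg.PSU 5 K 2) (AE : A ≤ E) (hp : A ≤ ⁅A, A⁆) {k x : G}
    (hk : k ∈ A) (hc : k ∈ 𝐂(A)) (k3 : k ^ 3 = 1) (hx : x ∈ A) (x5 : x ^ 5 = 1) (x1 : x ≠ 1) : k = 1 := by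
  have : H11.U.IsSq K 2 := ⟨hK⟩
  have hZ : center (Cfsg.SU 5 K 2) = ⊥ :=
    eq_bot_of_card_le _ (by rw [H11.U.card_center_SU (by norm_num)]; norm_num)
  let f : Cfsg.PSU 5 K 2 ≃* Cfsg.SU 5 K 2 := (QuotientGroup.quotientMulEquivOfEq hZ).trans QuotientGroup.quotientBot
  let σ : A →* Cfsg.SU 5 K 2 := (e.trans f).toMonoidHom.comp (inclusion AE)
  let ρ : A →* Matrix (Fin 5) (Fin 5) K := (Cfsg.slToMat 5 K).comp ((Cfsg.SU 5 K 2).subtype.comp σ)
  have inj : Function.Injective ρ := fun a b h =>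
    inclusion_injective AE ((e.trans f).injective (Subtype.ext (Subtype.ext h)))
  have hu : ∀ a, ρ a * ((ρ a).map (· ^ 2)).transpose = 1 := fun a => by
    have h1 : (ρ a).transpose * (ρ a).map (· ^ 2) = 1 := H11.U.isIso_iff.1 (H11.U.mem_SU.1 (σ a).2)
    have h2 := congrArg Matrix.transpose h1
    rw [Matrix.transpose_mul, Matrix.transpose_transpose, Matrix.transpose_one] at h2
    exact mul_eq_one_comm.1 h2
  have hA : commutator A = ⊤ := eq_top_iff.2 fun a _ => by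
    have := hp a.2
    rw [← map_subtype_commutator] at this
    obtain ⟨b, hb, h⟩ := this
    exact (Subtype.ext h : b = a) ▸ hb
  have := u5_mat hK ρ hu hA (k := ⟨k, hk⟩) (x := ⟨x, hx⟩) (fun a => Subtype.ext (hc a a.2)) (Subtype.ext k3)
    (Subtype.ext x5) (fun h => x1 (congrArg Subtype.val (inj (h.trans ρ.map_one.symm))))
  exact congrArg Subtype.val (inj (this.trans ρ.map_one.symm))

end H16D
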